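import Cfsg.Agent.S3058
import Cfsg.Agent.H2.Func
import Cfsg.Agent.H2.PL1

/-! The strong form of the Alperin-Goldschmidt theorem. -/

set_option autoImplicit false
namespace CfsgH2
open Cfsg Subgroup Function

variable {G : Type*} [Group G] {p : ℕ} {S H X U V : Subgroup G} {g h y : G}

/-- the conditions on a factor -/
structure AgC (p : ℕ) (S H X : Subgroup G) : Prop where
  le : H ≤ S
  syl : Syl p (S ⊓ N[H]) N[H]
  cen : S ⊓ C[H] ≤ H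
  opp : Opp p N[H] = H ⊔ C[H]
  lt : ¬ S ⊓ N[H] ≤ H
  iso : ∃ K, ¬ N[H] ≤ K ∧ ∀ U, H ≤ U → ¬ U ≤ H → U ≤ S ⊓ N[H] → N[H] ⊓ N[U] ≤ K
  x1 : H ≤ X
  x2 : X ≤ N[H]
  x3 : N[H] ≤ N[X]
  x4 : p ∣ H.relIndex X
  x5 : ∀ Y, H ≤ Y → Y ≤ N[H] → N[H] ≤ N[Y] → p ∣ H.relIndex Y → X ≤ Y

/-- chains of factors -/
inductive AgCh (p : ℕ) (S : Subgroup G) : Subgroup G → G → Prop
  | base (U : Subgroup G) (y : G) : y ∈ N[S] → AgCh p S U y
  | cons (U H X : Subgroup G) (x g : G) : U ≤ H → AgC p S H X → x ∈ piRes {p} X →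
      AgCh p S (U.map (cj x⁻¹)) g → AgCh p S U (x * g)

theorem AgCh.mono (a : AgCh p S U g) : ∀ V ≤ U, AgCh p S V g := by
  induction a with
  | base U y hy => exact fun V _ => .base V y hy
  | cons U H X x g l c hx _ ih => exact fun V hV => .cons V H X x g (hV.trans l) c hx (ih _ (map_mono hV))

theorem AgCh.mul (a : AgCh p S U g) (hy : y ∈ N[S]) : AgCh p S U (g * y) := by
  induction a with
  | base U z hz => exact .base U _ (mul_mem hz hy)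
  | cons U H X x g l c hx _ ih => rw [mul_assoc]; exact .cons U H X x _ l c hx ih

variable [Finite G] [hp : Fact p.Prime]

theorem AgC.cj (c : AgC p S H X) (hy : y ∈ N[S]) : AgC p S (H.map (cj y)) (X.map (cj y)) := by
  have e : S ⊓ N[H.map (CfsgH2.cj y)] = (S ⊓ N[H]).map (CfsgH2.cj y) := by
    rw [map_cj_inf, map_cj_eq hy, normalizer_map_cj]
  have sj : ∀ Y : Subgroup G, ∃ Y' : Subgroup G, Y'.map (CfsgH2.cj y) = Y := fun Y => ⟨_, map_cj_cj_inv y Y⟩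
  refine ⟨map_cj_le_of_norm c.le hy, by rw [e, normalizer_map_cj]; exact c.syl.map_cj y, ?_, ?_,
    by rw [e, map_cj_le_map_cj]; exact c.lt, ?_, map_mono c.x1, ?_, ?_, by rw [relIndex_map_cj]; exact c.x4,
    fun Y => ?_⟩
  · rw [centralizer_map_cj, ← map_cj_eq hy, ← map_cj_inf]; exact map_mono c.cen
  · rw [normalizer_map_cj, Opp_map_cj, c.opp, Subgroup.map_sup, centralizer_map_cj]
  · obtain ⟨K, a, b⟩ := c.iso
    refine ⟨K.map (CfsgH2.cj y), by rwa [normalizer_map_cj, map_cj_le_map_cj], fun U => ?_⟩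
    obtain ⟨U, rfl⟩ := sj U
    rw [e, normalizer_map_cj, normalizer_map_cj, ← map_cj_inf]
    simp only [map_cj_le_map_cj]
    exact b U
  · rw [normalizer_map_cj]; exact map_mono c.x2
  · rw [normalizer_map_cj, normalizer_map_cj]; exact map_mono c.x3
  · obtain ⟨Y, rfl⟩ := sj Y
    rw [normalizer_map_cj, normalizer_map_cj, relIndex_map_cj]
    simp only [map_cj_le_map_cj]
    exact c.x5 Y

theorem AgCh.cj (a : AgCh p S U g) (hy : y ∈ N[S]) : AgCh p S (U.map (cj y)) (y * g) := by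
  induction a with
  | base U z hz => exact .base _ _ (mul_mem hy hz)
  | cons U H X x g l c hx _ ih =>
    rw [show y * (x * g) = y * x * y⁻¹ * (y * g) by group]
    refine .cons _ _ _ _ _ (map_mono l) (c.cj hy) (by rw [← map_piRes]; exact conj_mem_map_cj hx) ?_
    rw [map_cj_cj] at ih ⊢
    rwa [show (y * x * y⁻¹)⁻¹ * y = y * x⁻¹ by group]

theorem AgCh.trans (a : AgCh p S U g) (b : AgCh p S (U.map (CfsgH2.cj g⁻¹)) h) : AgCh p S U (g * h) := by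
  induction a with
  | base U z hz => have := b.cj hz; rwa [map_cj_cj_inv] at this
  | cons U H X x g l c hx _ ih =>
    rw [mul_assoc]
    exact .cons U H X x _ l c hx (ih (by rwa [map_cj_cj, ← mul_inv_rev]))

omit [Finite G] hp in
theorem AgCh.list (a : AgCh p S U g) : ∃ (n : ℕ) (H X : Fin n → Subgroup G) (x : Fin n → G), ∃ y ∈ N[S],
    g = (List.ofFn x).prod * y ∧ ∀ i : Fin n, AgC p S (H i) (X i) ∧ x i ∈ piRes {p} (X i) ∧
      U.map (CfsgH2.cj ((List.ofFn x).take i.val).prod⁻¹) ≤ H i := by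
  induction a with
  | base U z hz => exact ⟨0, Fin.elim0, Fin.elim0, Fin.elim0, z, hz, by simp, fun i => i.elim0⟩
  | cons U H X x g l c hx _ ih =>
    obtain ⟨n, H', X', x', y, hy, e, k⟩ := ih
    refine ⟨n + 1, Fin.cons H H', Fin.cons X X', Fin.cons x x', y, hy, by
      rw [e, List.ofFn_succ]; simp [mul_assoc], fun i => Fin.cases ?_ (fun j => ?_) i⟩
    · exact ⟨c, hx, by simpa using l⟩
    · refine ⟨(k j).1, (k j).2.1, ?_⟩
      have := (k j).2.2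
      rw [map_cj_cj] at this
      rw [List.ofFn_succ]
      simpa using this

theorem not_chain (h1 : Syl p (S ⊓ N[H]) N[H]) (h0 : H ≤ S) (h2 : ¬ S ⊓ N[H] ≤ H) {K : Subgroup G} (a : ¬ N[H] ≤ K)
    (b : ∀ U, H ≤ U → ¬ U ≤ H → U ≤ S ⊓ N[H] → N[H] ⊓ N[U] ≤ K) : ¬ IsSylowChainConnected p (Qt H) := by
  have s := h1.qt le_rfl
  rw [qt_norm_self] at s
  have l : H ≤ S ⊓ N[H] := le_inf h0 le_normalizer
  have HK : H ≤ K ⊓ N[H] := le_inf ((le_inf le_normalizer (l.trans le_normalizer)).trans (b _ l h2 le_rfl))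
    le_normalizer
  refine CfsgH9.not_chainConnected_iff.2 ⟨qt H (K ⊓ N[H]), CfsgH9.spe_of_normalizer (lt_top_iff_ne_top.2 fun e => a ?_)
    ⟨s.le, s.pg, s.nd⟩ (mt (qt_eq_bot inf_le_right).1 h2) fun Y y1 y2 => ?_⟩
  · rw [← qt_norm_self, qt_inj inf_le_right le_rfl HK le_normalizer] at e
    exact e.ge.trans inf_le_left
  · obtain ⟨U, u1, u2, rfl⟩ := exists_qt_eq Y
    rw [← qt_norm_self, ← qt_inf_norm u2 u1]
    exact qt_mono (le_inf (b U u1 (mt (qt_eq_bot u2).2 y2) ((qt_le_qt' u2 inf_le_right l).1 y1)) inf_le_left)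

theorem exists_X (h1 : Syl p (S ⊓ N[H]) N[H]) (h0 : H ≤ S) (h2 : ¬ S ⊓ N[H] ≤ H)
    (h : ¬ IsSylowChainConnected p (Qt H)) : ∃ X, H ≤ X ∧ X ≤ N[H] ∧ N[H] ≤ N[X] ∧ p ∣ H.relIndex X ∧
      ∀ Y, H ≤ Y → Y ≤ N[H] → N[H] ≤ N[Y] → p ∣ H.relIndex Y → X ≤ Y := by
  have d : p ∣ H.relIndex N[H] := by
    rw [← card_qt le_rfl]
    exact (dvd_card_of_pgroup (h1.qt le_rfl).pg (mt (qt_eq_bot inf_le_right).1 h2)).trans
      (card_dvd_of_le (qt_mono inf_le_right))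
  obtain ⟨X, -, ⟨a, b, c, e⟩, m⟩ := exists_minimal_le
    (fun X => H ≤ X ∧ X ≤ N[H] ∧ N[H] ≤ N[X] ∧ p ∣ H.relIndex X) ⟨le_normalizer, le_rfl, le_normalizer, d⟩
  refine ⟨X, a, b, c, e, fun Y y1 y2 y3 y4 => (m (X ⊓ Y) ⟨le_inf a y1, inf_le_left.trans b,
    le_norm_inf c y3, ?_⟩ inf_le_left).ge.trans inf_le_right⟩
  haveI : (qt H X).Normal := normal_of_top_le_norm (qt_norm_self (K := H) ▸ qt_le_norm c)
  haveI : (qt H Y).Normal := normal_of_top_le_norm (qt_norm_self (K := H) ▸ qt_le_norm y3)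
  rw [← card_qt (inf_le_left.trans b), qt_inf y1]
  exact Cfsg.Agent.S3058.result p h _ _ (by rwa [card_qt b]) (by rwa [card_qt y2])

theorem ag_main (hS : Syl p S ⊤) : ∀ U ≤ S, ∀ g ∈ (⊤ : Subgroup G), U.map (cj g) ≤ S →
    ∃ c ∈ C[U], ∃ h, AgCh p S U h ∧ g⁻¹ = c * h := by
  have tr : ∀ (U : Subgroup G) (c d : G), (∃ a ∈ C[U], ∃ h, AgCh p S U h ∧ c⁻¹ = a * h) →
      (∃ a ∈ C[U.map (cj c)], ∃ h, AgCh p S (U.map (cj c)) h ∧ d⁻¹ = a * h) →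
      ∃ a ∈ C[U], ∃ h, AgCh p S U h ∧ (d * c)⁻¹ = a * h := by
    rintro U c d ⟨a, a1, h, a2, a3⟩ ⟨b, b1, k, b2, b3⟩
    have e : U.map (cj c) = U.map (cj h⁻¹) := by
      rw [show c = h⁻¹ * a⁻¹ by rw [← mul_inv_rev, ← a3, inv_inv], ← map_cj_cj, map_cj_of_cent (inv_mem a1)]
    rw [e] at b1 b2
    rw [centralizer_map_cj, mem_map_cj, inv_inv] at b1
    exact ⟨_, mul_mem a1 b1, _, a2.trans b2, by rw [mul_inv_rev, a3, b3]; group⟩
  refine alp_ind_fn hS _ tr (fun U V c l ⟨a, a1, h, a2, a3⟩ => ⟨a, cent_anti l a1, h, a2.mono V l, a3⟩)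
    fun F hF hs ih => ?_
  rw [top_inf_eq] at hs ⊢
  have ml : ∀ x ∈ N[F], ∀ z, (∃ a ∈ C[F], ∃ h, AgCh p S F h ∧ x⁻¹ = a * h) →
      (∃ a ∈ C[F], ∃ h, AgCh p S F h ∧ z⁻¹ = a * h) → ∃ a ∈ C[F], ∃ h, AgCh p S F h ∧ (z * x)⁻¹ = a * h :=
    fun x hx z a b => tr F x z a (by rwa [map_cj_eq hx])
  have cn : ∀ x ∈ C[F], ∃ a ∈ C[F], ∃ h, AgCh p S F h ∧ x⁻¹ = a * h := fun x hx =>
    ⟨_, inv_mem hx, 1, .base _ _ (one_mem _), (mul_one _).symm⟩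
  have big : ∀ V ≤ S, F ≤ V → ¬ V ≤ F → ∀ x ∈ N[V], ∃ a ∈ C[F], ∃ h, AgCh p S F h ∧ x⁻¹ = a * h :=
    fun V v1 v2 v3 x hx => by
      obtain ⟨a, a1, h, a2, a3⟩ := ih V v1 (index_lt_of_lt (lt_of_le_not_ge v2 v3)) x trivial
        (by rwa [map_cj_eq hx])
      exact ⟨a, cent_anti v2 a1, h, a2.mono F v2, a3⟩
  intro x hx
  by_cases h1 : S ⊓ N[F] ≤ F
  · have e : F = S := by
      by_contra e
      exact (lt_inf_norm hS.pg.isNilpotent (lt_of_le_of_ne hF e)).not_ge h1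
    exact ⟨1, one_mem _, x⁻¹, .base _ _ (inv_mem (e ▸ hx)), (one_mul _).symm⟩
  have l : F ≤ S ⊓ N[F] := le_inf hF le_normalizer
  have nC : N[F] ≤ N[C[F]] := le_norm_cent le_rfl
  have sC := hs.inf_norm (cent_le_norm F) (inf_le_right.trans nC)
  by_cases h2 : S ⊓ N[F] ⊓ C[F] ≤ F
  swap
  · obtain ⟨k, hk, n, hn, rfl⟩ := sC.frattini (nC hx)
    have n1 : n ∈ N[F] := by simpa using mul_mem (inv_mem (cent_le_norm F hk)) hx
    exact ml n n1 k (big (F ⊔ S ⊓ N[F] ⊓ C[F]) (sup_le hF (inf_le_left.trans inf_le_left)) le_sup_left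
      (fun e => h2 (le_sup_right.trans e)) n (mem_norm_sup n1 hn)) (cn k hk)
  have sO := hs.syl_Opp
  have FO : F ≤ O[{p}, N[F]] := le_pCoreOf le_normalizer le_rfl (hS.pg.to_le hF)
  have OC : O[{p}ᶜ, N[F]] ≤ C[F] := (le_centralizer_iff.1 piCoreOf_le_cent).trans (cent_anti FO)
  by_cases h3 : S ⊓ N[F] ⊓ Opp p N[F] ≤ F
  swap
  · obtain ⟨k, hk, n, hn, rfl⟩ := sO.frattini (le_norm_Opp hx)
    rw [← sO.Opp_eq] at hk
    obtain ⟨u, hu, v, hv, rfl⟩ := (mem_sup_of_norm' (sO.le.trans (Opp_le.trans le_norm_piCoreOf))).1 hk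
    rw [mul_assoc] at hx ⊢
    have n1 : v * n ∈ N[F] := by simpa using mul_mem (inv_mem (cent_le_norm F (OC hu))) hx
    exact ml _ n1 u (big _ (inf_le_left.trans inf_le_left) (le_inf l (FO.trans core_le_Opp)) h3 _
      (mul_mem (le_normalizer hv) hn)) (cn u (OC hu))
  set K := ⨆ U : {U // F ≤ U ∧ ¬ U ≤ F ∧ U ≤ S ⊓ N[F]}, N[F] ⊓ N[U.1] with hK
  have KN : K ≤ N[F] := iSup_le fun _ => inf_le_left
  have kk : ∀ z ∈ K, z ∈ N[F] ∧ ∃ a ∈ C[F], ∃ h, AgCh p S F h ∧ z⁻¹ = a * h := fun z hz =>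
    iSup_induction _ (C := fun z => z ∈ N[F] ∧ ∃ a ∈ C[F], ∃ h, AgCh p S F h ∧ z⁻¹ = a * h) hz
      (fun U z hz => ⟨hz.1, big U.1 (U.2.2.2.trans inf_le_left) U.2.1 U.2.2.1 z hz.2⟩)
      ⟨one_mem _, cn 1 (one_mem _)⟩ fun u v a b => ⟨mul_mem a.1 b.1, ml v b.1 u b.2 a.2⟩
  by_cases h4 : N[F] ≤ K
  · exact (kk x (h4 hx)).2
  have b : ∀ U, F ≤ U → ¬ U ≤ F → U ≤ S ⊓ N[F] → N[F] ⊓ N[U] ≤ K := fun U u1 u2 u3 =>
    le_iSup (fun U : {U // F ≤ U ∧ ¬ U ≤ F ∧ U ≤ S ⊓ N[F]} => N[F] ⊓ N[U.1]) ⟨U, u1, u2, u3⟩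
  obtain ⟨X, x1, x2, x3, x4, x5⟩ := exists_X hs hF h1 (not_chain hs hF h1 h4 b)
  have c : AgC p S F X := ⟨hF, hs, (le_inf (inf_le_inf_left _ (cent_le_norm F)) inf_le_right).trans h2,
    le_antisymm (by rw [← sO.Opp_eq]; exact sup_le (OC.trans le_sup_right) (h3.trans le_sup_left))
      (sup_le (FO.trans core_le_Opp) (le_Opp (cent_le_norm F) nC
        (sC.npc_of_norm_le_cent (inf_le_left.trans (cent_anti h2))))), h1, ⟨K, h4, b⟩, x1, x2, x3, x4, x5⟩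
  have sX := hs.inf_norm x2 (inf_le_right.trans x3)
  have nX : ¬ S ⊓ N[F] ⊓ X ≤ F := fun e => sX.nd (by rwa [le_antisymm e (le_inf l x1)])
  obtain ⟨k, hk, n, hn, rfl⟩ := sX.frattini (x3 hx)
  rw [← sX.piRes_sup] at hk
  obtain ⟨u, hu, v, hv, rfl⟩ := (mem_sup_of_norm' (sX.le.trans le_norm_piRes)).1 hk
  rw [mul_assoc] at hx ⊢
  have n1 : v * n ∈ N[F] := by simpa using mul_mem (inv_mem (x2 (piRes_le hu))) hx
  exact ml _ n1 u (big _ (inf_le_left.trans inf_le_left) (le_inf l x1) nX _ (mul_mem (le_normalizer hv) hn))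
    ⟨1, one_mem _, u⁻¹ * 1, .cons F F X _ _ le_rfl c (inv_mem hu) (.base _ _ (one_mem _)), by group⟩

end CfsgH2
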