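import Cfsg.Agent.H2.JA1

/-! Abelian subgroups of largest order in `p`-solvable groups, `p ≥ 5`. -/

set_option autoImplicit false
namespace CfsgH2
open Subgroup Function Cfsg CfsgL0 CfsgBG
open scoped commutatorElement

variable {G : Type*} [Group G] {A B D E H K L M P Q S T Y Z : Subgroup G} {a x y : G} {p k : ℕ}
  [Finite G] [hp : Fact p.Prime]

theorem ja_pg (hp5 : 5 ≤ p) (pT : PG[p, T]) (hA : ME 0 T A) (hD : D ≤ T) (nD : T ≤ N[D])
    (nY : T ≤ N[Y]) (hY : Y ≤ D) (cY : Y ≤ C[D]) (he : ∀ x ∈ D, x ^ p ∈ Y) (hQ : ⁅D, Q⁆ ≤ Y)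
    (hDQ : D ≤ Q) (ha : a ∈ A) (hc : A ≤ A ⊓ Q ⊔ zpowers a) :
    iterCommutator D (zpowers a) 4 ≤ Y := by
  have ab : ⁅D, D⁆ ≤ Y := (commutator_mono le_rfl hDQ).trans hQ
  have h : LH D Y a := ⟨hY, ab, nD (hA.le ha), nY (hA.le ha)⟩
  suffices h1 : D ≤ lev D Y a 4 from (iterComm_mono h1 le_rfl 4).trans (h.iter 4)
  by_contra h1
  obtain ⟨w, w1, w2⟩ := h.step (pT.to_le hD) (pT.to_le ((zpowers_le.2 ha).trans hA.le)) h1
  obtain ⟨W, W0, Ws⟩ : ∃ W : ℕ → G, W 0 = w ∧ ∀ i, W (i + 1) = tau a (W i) :=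
    ⟨fun i => (tau a)^[i] w, rfl, fun i => iterate_succ_apply' _ _ _⟩
  have WD : ∀ i, W i ∈ D := fun i => by
    induction i with
    | zero => exact W0 ▸ w1.1
    | succ i ih => rw [Ws]; exact tau_mem h.nD ih
  have m : ∀ i k, W i ∈ lev D Y a (k + 1) ↔ W (i + 1) ∈ lev D Y a k := fun i k => by
    rw [Ws]; exact h.mem (WD i)
  rw [← W0] at w1 w2
  have a1 := (m 0 4).1 w1
  have a3 := (m 2 2).1 ((m 1 3).1 a1)
  have a5 : W 5 ∈ Y := (m 4 0).1 ((m 3 1).1 a3)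
  have b2 : W 2 ∉ lev D Y a 2 := fun e => w2 ((m 0 3).2 ((m 1 2).2 e))
  have b3 : W 3 ∉ lev D Y a 1 := fun e => b2 ((m 2 1).2 e)
  have cD : ⁅D, D⁆ ≤ C[D] := ab.trans cY
  have abE : Ab[(⁅D, D⁆ : Subgroup G)] :=
    isMulComm_of_le_cent (cD.trans (cent_anti commutator_self_le))
  have cQ : Q ≤ C[(⁅D, D⁆ : Subgroup G)] := le_centralizer_iff.1 (comm_eq_bot_iff.1 (three_subgroup
    (comm_eq_bot_iff.2 (hQ.trans cY)) (by rw [commutator_comm Q]; exact comm_eq_bot_iff.2 (hQ.trans cY))))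
  have eE : ∀ x ∈ (⁅D, D⁆ : Subgroup G), x ^ p = 1 := fun x hx => by
    refine closure_induction (p := fun x _ => x ^ p = 1) ?_ (one_pow p) (fun x y hx hy e1 e2 => ?_)
      (fun x _ e => by rw [inv_pow, e, inv_one]) hx
    · rintro _ ⟨u, hu, v, hv, rfl⟩
      rw [← comm_pow_eq cD hu hv, commutatorElement_eq_one_iff_mul_comm]
      exact (cY (he u hu) v hv).symm
    · rw [Commute.mul_pow (le_cent_self abE hy x hx), e1, e2, one_mul]
  have nE : a ∈ N[(⁅D, D⁆ : Subgroup G)] := le_norm_commutator nD nD (hA.le ha)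
  have tt : ∀ y ∈ (⁅D, D⁆ : Subgroup G), tau a (tau a y) = 1 := fun y hy =>
    tau_tau (by omega) hA pT (commutator_self_le.trans hD) abE eE ha nE
      (hc.trans (sup_le_sup_right (inf_le_inf_left _ cQ) _)) hy
  have FE : ∀ i j, ⁅W i, W j⁆ ∈ (⁅D, D⁆ : Subgroup G) := fun i j =>
    commutator_mem_commutator (WD i) (WD j)
  have tF : ∀ i j, tau a ⁅W i, W j⁆ = ⁅W i, W (j + 1)⁆ * ⁅W (i + 1), W j⁆ * ⁅W (i + 1), W (j + 1)⁆ :=
    fun i j => by
      rw [tau, conjugate_commutatorElement, conj_tau, conj_tau a (W j), ← Ws, ← Ws,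
        comm_bilin cD (WD _) (WD _) (WD _) (WD _), inv_mul_cancel_left]
  have tE : ∀ x ∈ (⁅D, D⁆ : Subgroup G), ∀ y ∈ (⁅D, D⁆ : Subgroup G),
      tau a (x * y) = tau a x * tau a y := fun x hx y hy => by
    rw [tau_mul', mul_assoc y⁻¹, le_cent_self abE hy _ (tau_mem nE hx), inv_mul_cancel_left]
  have z5 : ∀ i, ⁅W i, W 5⁆ = 1 := fun i =>
    commutatorElement_eq_one_iff_mul_comm.2 (cY a5 _ (WD i))
  have t04 := tF 0 4
  have t14 := tF 1 4
  have t24 := tF 2 4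
  have t03 := tF 0 3
  have t13 := tF 1 3
  have t23 := tF 2 3
  have t12 := tF 1 2
  simp only [Nat.reduceAdd, z5, one_mul, mul_one, commutatorElement_self]
    at t04 t14 t24 t03 t13 t23 t12
  have f34 : ⁅W 3, W 4⁆ = 1 := by rw [← t24, ← t14]; exact tt _ (FE _ _)
  have f24 : ⁅W 2, W 4⁆ = 1 := by rw [← t14, ← t04]; exact tt _ (FE _ _)
  have g1 := tt _ (FE 1 2)
  have g2 := tt _ (FE 0 3)
  rw [t12, tE _ (FE _ _) _ (FE _ _), t13, t23, f24, f34, mul_one, mul_one, mul_one] at g1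
  rw [t03, tE _ (mul_mem (FE _ _) (FE _ _)) _ (FE _ _), tE _ (FE _ _) _ (FE _ _), t04, t13, t14, f24,
    mul_one, mul_one, g1, mul_one] at g2
  rw [g2, one_mul] at g1
  rw [commutatorElement_eq_one_iff_mul_comm] at g1 f24 f34
  have qz : ∀ Z, Y ≤ Z → Z ≤ D → A ⊓ Q ≤ cz (W 1) Z := fun Z z1 z2 u hu =>
    ⟨le_norm_of_comm_le ((commutator_mono z2 inf_le_right).trans (hQ.trans z1)) le_rfl hu, by
      have e : tau u (W 1) = ⁅(W 1)⁻¹, u⁆ := by unfold tau; rw [commutatorElement_def]; group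
      rw [e]; exact z1 (hQ (commutator_mem_commutator (inv_mem (WD 1)) hu.2))⟩
  set U := closure (({W 2, W 3, W 4} : Set G) ∪ Y) with hU
  have YU : Y ≤ U := fun y hy => subset_closure (Or.inr hy)
  have u2 : W 2 ∈ U := subset_closure (Or.inl (by simp))
  have u3 : W 3 ∈ U := subset_closure (Or.inl (by simp))
  have u4 : W 4 ∈ U := subset_closure (Or.inl (by simp))
  have UD : U ≤ D := (closure_le _).2 (by
    rintro _ ((rfl | rfl | rfl) | hy)
    exacts [WD _, WD _, WD _, hY hy])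
  have abU : Ab[U] := isMulCommutative_closure (by
    rintro x hx y hy
    rcases hx with hx | hx
    · rcases hy with hy | hy
      · rcases hx with rfl | rfl | rfl <;> rcases hy with rfl | rfl | rfl <;>
          first | rfl | assumption | (symm; assumption)
      · exact cY hy _ (UD (subset_closure (Or.inl hx)))
    · exact (cY hx _ (UD (subset_closure hy))).symm)
  have nU : a ∈ N[U] := mem_norm_of_map_le (by
    rw [hU, MonoidHom.map_closure, closure_le]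
    rintro _ ⟨x, hx, rfl⟩
    show a * x * a⁻¹ ∈ U
    rcases hx with (rfl | rfl | rfl) | hy
    · rw [conj_tau, ← Ws]; exact mul_mem u2 u3
    · rw [conj_tau, ← Ws]; exact mul_mem u3 u4
    · rw [conj_tau, ← Ws]; exact mul_mem u4 (YU a5)
    · exact YU (cjm h.nY hy))
  have AU : A ≤ cz (W 1) U := hc.trans (sup_le (qz U YU UD) (zpowers_le.2 ⟨nU, Ws 1 ▸ u2⟩))
  obtain ⟨b, hb, hz⟩ := thompson_surj hA (hD (WD 1)) rfl (isMulComm_of_le abU ((closure_le _).2 (by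
    rintro _ ⟨b, hb, rfl⟩; exact (AU hb).2))) (m := W 3) (by
    have e : W 3 = (tau a (W 1))⁻¹ * ((tau a (W 1))⁻¹ * tau (a * a) (W 1)) := by
      rw [tau_mul, inv_mul_cancel_left, Ws 2, Ws 1]; rfl
    rw [e]
    exact mul_mem (inv_mem (subset_closure ⟨a, ha, rfl⟩)) (mul_mem (inv_mem (subset_closure
      ⟨a, ha, rfl⟩)) (subset_closure ⟨a * a, mul_mem ha ha, rfl⟩)))
  have z1 : (tau b (W 1))⁻¹ * W 3 ∈ lev D Y a 1 :=
    (h.mem (mul_mem (inv_mem (UD (AU hb).2)) (WD 3))).2 (tau_eq_one.2 (hz a ha) ▸ one_mem _)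
  have ap : tau (a ^ p) (W 1) ∈ Y := h.pow hp.out he (by omega) a1
  obtain ⟨u, hu, _, ⟨i, rfl⟩, rfl⟩ := (mem_sup_of_norm' ((zpowers_le.2 ha).trans
    (le_norm_of_le_cent (le_cent_of_comm hA.ab inf_le_left)))).1 (hc hb)
  by_cases hi : (p : ℤ) ∣ i
  · obtain ⟨k, rfl⟩ := hi
    have : u * a ^ ((p : ℤ) * k) ∈ cz (W 1) Y := mul_mem (qz Y le_rfl hY hu) (by
      rw [zpow_mul, zpow_natCast]; exact zpow_mem (⟨pow_mem h.nY p, ap⟩ : a ^ p ∈ cz _ _) k)
    exact b3 ((mul_mem_cancel_left (inv_mem ((h.aux 1).1 this.2))).1 z1)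
  · obtain ⟨s, t, e⟩ := (Nat.prime_iff_prime_int.1 hp.out).coprime_iff_not_dvd.2 hi
    have n2 := (h.aux 2).2.2
    have c1 : u * a ^ i ∈ cz (W 1) (lev D Y a 2) := ⟨mul_mem
      (qz _ (h.aux 2).1 (h.aux 2).2.1 hu).1 (zpow_mem n2 i),
      (inv_mem_iff (x := tau _ _)).1 ((mul_mem_cancel_right a3).1 (h.mono 1 z1))⟩
    have c2 := (mul_mem_cancel_left (qz _ (h.aux 2).1 (h.aux 2).2.1 hu)).1 c1
    have c3 : a ^ p ∈ cz (W 1) (lev D Y a 2) := ⟨pow_mem n2 p, (h.aux 2).1 ap⟩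
    have c4 := mul_mem (zpow_mem c3 s) (zpow_mem c2 t)
    rw [← zpow_natCast, ← zpow_mul, ← zpow_mul, ← zpow_add, mul_comm, mul_comm i, e, zpow_one] at c4
    exact b2 (Ws 1 ▸ c4.2)

theorem ja_um (hp5 : 5 ≤ p) (h : UM p T T H) (con : Con p H) (hA : ME 0 T A) (ha : a ∈ A)
    (hc : A ≤ A ⊓ piCoreOf {p} H ⊔ zpowers a) : a ∈ piCoreOf {p} H := by
  by_contra hn
  have hK : ¬ piRes {p} H ≤ C[piCoreOf {p} H] := fun e => hn (le_pCoreOf le_rfl le_normalizer
    (isPGroup_of_piRes (isPGroup_piCoreOf.to_le ((le_inf piRes_le e).trans con)))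
    (h.syl.le (hA.le ha)))
  obtain ⟨D, -, ⟨d1, d2, d3⟩, d4⟩ := exists_minimal_le
    (fun D => D ≤ piCoreOf {p} H ∧ H ≤ N[D] ∧ ¬ piRes {p} H ≤ C[D]) ⟨le_rfl, le_norm_piCoreOf, hK⟩
  have pD : PG[p, D] := isPGroup_piCoreOf.to_le d1
  have mn : ∀ L, L < D → H ≤ N[L] → piRes {p} H ≤ C[L] := fun L l1 l2 => by
    by_contra e; exact l1.ne (d4 L ⟨l1.le.trans d1, l2, e⟩ l1.le)
  have d0 : ⊥ < D := bot_lt_iff_ne_bot.2 fun e => d3 (by rw [e, cent_bot]; exact le_top)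
  obtain ⟨Y, -, hY⟩ := exists_chf_below d0 (d1.trans piCoreOf_le) d2 (by rw [norm_bot]; exact le_top)
  have eD : ⁅D, piRes {p} H⁆ = D := by
    by_contra e
    have := mn _ (lt_of_le_of_ne (comm_le_left (piRes_le.trans d2)) e)
      (le_norm_commutator d2 le_norm_piRes)
    exact d3 (piRes_piRes.ge.trans (piRes_le_cent_of_comm pD (piRes_le.trans d2) le_rfl
      (piRes_le.trans this)))
  have kY := mn Y hY.lt hY.nY
  have cY : Y ≤ C[D] := by
    rw [← eD]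
    refine le_centralizer_iff.1 (comm_eq_bot_iff.1 (three_subgroup ?_ ?_))
    · rw [comm_eq_bot_iff.2 kY, commutator_bot_left]
    · exact comm_eq_bot_iff.2 ((comm_le_left (hY.le.trans hY.nY)).trans (le_centralizer_iff.1 kY))
  have i4 := ja_pg hp5 h.syl.pg hA (d1.trans h.syl.pCoreOf_le) (h.syl.le.trans d2)
    (h.syl.le.trans hY.nY) hY.lt.le cY (fun x hx => hY.pow_mem pD hx)
    (hY.comm_le pD isPGroup_piCoreOf piCoreOf_le le_norm_piCoreOf) d1 ha hc
  have := h.chf_central hY pD (by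
      rw [piRes_eq_bot (h.syl.pg.to_le inf_le_right), commutator_bot_right]; exact bot_le)
    (hA.le ha) hn (iterComm_le_of_le (zpowers_le.2 (hY.nY (h.syl.le (hA.le ha)))) (by omega) i4)
  exact hY.lt.not_ge (eD.ge.trans ((commutator_mono le_rfl piRes_le).trans this))

theorem ja_top (hp5 : 5 ≤ p) (hS : Syl p S ⊤) (con : Con p (⊤ : Subgroup G))
    (pc : PG[p, (⁅piRes {p} (⊤ : Subgroup G), piRes {p} ⊤⁆ : Subgroup G)]) (hA : ME 0 S A) :
    A ≤ piCoreOf {p} ⊤ := by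
  by_contra hn
  set P := piCoreOf {p} (⊤ : Subgroup G) with hP
  have pP : PG[p, P] := isPGroup_piCoreOf
  have PS : P ≤ S := hS.pCoreOf_le
  set π := QuotientGroup.mk' P with hπ
  have kπ : π.ker = P := QuotientGroup.ker_mk' P
  have sπ : Surjective π := QuotientGroup.mk'_surjective P
  set K := (piRes {p} (⊤ : Subgroup G)).map π with hK
  have cP : (⁅piRes {p} (⊤ : Subgroup G), piRes {p} ⊤⁆ : Subgroup G) ≤ P :=
    le_pCoreOf le_top (le_norm_commutator le_norm_piRes le_norm_piRes) pc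
  have abK : Ab[K] := comm_self_eq_bot_iff.1 (by
    rw [hK, ← map_commutator, Subgroup.map_eq_bot_iff, kπ]; exact cP)
  have ndK : ¬ p ∣ o[K] := fun e => not_dvd_relIndex_comm_piRes (M := (⊤ : Subgroup G)) (by
    rw [hK, ← relIndex_ker, kπ] at e
    exact e.trans (relIndex_dvd_of_le_left _ cP))
  have nK : ⊤ ≤ N[K] := by
    rw [← map_top_of_surjective π sπ]; exact map_le_norm_map π le_norm_piRes
  have q0 : piCoreOf {p} (⊤ : Subgroup (G ⧸ P)) = ⊥ := by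
    rw [← map_top_of_surjective π sπ, ← map_piCoreOf _ (by
      rw [top_inf_eq, kπ]; exact isPGroup_iff_piN.1 pP), Subgroup.map_eq_bot_iff, kπ]
  have abA : Ab[A.map π] := comm_self_eq_bot_iff.1 (by
    rw [← map_commutator, comm_self_eq_bot_iff.2 hA.ab, Subgroup.map_bot])
  have pA : PG[p, A.map π] := (hS.pg.to_le hA.le).map π
  have h1 : ¬ K ≤ C[A.map π] := fun e => hn (by
    have : S.map π ⊓ C[K] ≤ piCoreOf {p} ⊤ := le_pCoreOf le_top (by
      rw [← map_top_of_surjective π sπ]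
      refine (map_mono hS.piRes_sup.ge).trans ?_
      rw [Subgroup.map_sup]
      exact sup_le (le_norm_of_le_cent (le_centralizer_iff.1 inf_le_right))
        (le_norm_inf le_normalizer (le_norm_cent (le_top.trans nK)))) ((hS.pg.map π).to_le inf_le_left)
    rw [q0] at this
    rw [← kπ, ← Subgroup.map_eq_bot_iff, eq_bot_iff]
    exact (le_inf (map_mono hA.le) (le_centralizer_iff.1 e)).trans this)
  obtain ⟨B, b1, ⟨_, ⟨a, ha, rfl⟩, b2⟩, b3⟩ : ∃ B, B ≤ A.map π ∧ (∃ a ∈ A.map π, B ⊔ zpowers a = A.map π) ∧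
      ¬ K ⊓ C[B] ≤ C[A.map π] := by
    by_contra e
    push Not at e
    exact h1 (le_of_cocyclic abA (le_top.trans nK) (coprime_of_pgroup pA ndK) e)
  have AB : A.map π ≤ C[B] := le_cent_of_comm abA b1
  have n0 : A.map π ≤ N[K ⊓ C[B]] := le_norm_inf (le_top.trans nK) (AB.trans le_normalizer)
  set L := ⁅K ⊓ C[B], A.map π⁆ with hL
  have l0 : L ≤ K ⊓ C[B] := comm_le_left n0
  have l1 : L ⊓ C[A.map π] = ⊥ := coprime_comm_inf_cent (isMulComm_of_le abK inf_le_left) n0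
    ((coprime_of_pgroup pA ndK).coprime_dvd_right (card_dvd_of_le inf_le_left))
  have nL : A.map π ≤ N[L] := le_norm_comm_right
  have dKA : K ⊓ A.map π = ⊥ := inf_eq_bot_of_coprime' (coprime_of_pgroup pA ndK).symm
  have dLA : L ⊓ A.map π = ⊥ := eq_bot_iff.2 ((inf_le_inf_right _ (l0.trans inf_le_left)).trans dKA.le)
  have eT : (A.map π).comap π = A ⊔ P := by rw [comap_map_eq, kπ]
  have TS : (A.map π).comap π ≤ S := eT ▸ sup_le hA.le PS
  have sT : Syl p ((A.map π).comap π) ((L ⊔ A.map π).comap π) := ⟨comap_mono le_sup_right,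
    hS.pg.to_le TS, by
      rw [relIndex_comap, map_comap_eq_self_of_surjective sπ]
      have e := card_mul_relIndex (le_sup_right : A.map π ≤ L ⊔ A.map π)
      rw [card_sup_of_disj (Or.inr nL) dLA, mul_comm, mul_left_inj' (card_pos' _).ne'] at e
      rw [e]; exact fun e' => ndK (e'.trans (card_dvd_of_le (l0.trans inf_le_left)))⟩
  obtain ⟨H, hH, um⟩ := exists_um sT le_rfl fun e => b3 (comm_eq_bot_iff.1 (eq_bot_iff.2 (by
    rw [comap_le_comap_of_surjective sπ] at e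
    exact (le_inf le_rfl (le_sup_left.trans e)).trans dLA.le)))
  have AT : A ≤ (A.map π).comap π := eT ▸ le_sup_left
  have PT : P ≤ (A.map π).comap π := eT ▸ le_sup_right
  have PQ : P ≤ piCoreOf {p} H := piCoreOf_le_piCoreOf (PT.trans um.syl.le) le_top
  have BQ : B.comap π ≤ piCoreOf {p} H := le_pCoreOf ((comap_mono b1).trans um.syl.le)
    (hH.trans ((comap_mono (le_norm_of_le_cent (sup_le (l0.trans inf_le_right) AB))).trans
      (le_normalizer_comap π))) (hS.pg.to_le ((comap_mono b1).trans TS))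
  have hc : A ≤ A ⊓ piCoreOf {p} H ⊔ zpowers a := fun b hb => by
    obtain ⟨β, hβ, _, ⟨i, rfl⟩, e⟩ := (mem_sup_of_norm' ((zpowers_le.2 (mem_map_of_mem π ha)).trans
      (le_norm_of_le_cent AB))).1 (b2.ge (mem_map_of_mem π hb))
    rw [← inv_mul_cancel_right b (a ^ i)]
    refine mul_mem (mem_sup_left ⟨A.mul_mem hb (A.inv_mem (A.zpow_mem ha i)), BQ ?_⟩)
      (mem_sup_right ⟨i, rfl⟩)
    rw [mem_comap, map_mul, map_inv, map_zpow, ← e, mul_inv_cancel_right]; exact hβ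
  have aQ := ja_um hp5 um (((inf_le_inf le_top (cent_anti PQ)).trans con).trans PQ)
    (hA.mono AT TS) ha hc
  have eQ : piCoreOf {p} H = (A.map π).comap π := le_antisymm um.syl.pCoreOf_le
    (eT ▸ sup_le (hc.trans (sup_le inf_le_right (zpowers_le.2 aQ))) PQ)
  refine um.nle fun g hg => ?_
  obtain ⟨k, hk, α, hα, e⟩ := (mem_sup_of_norm' nL).1 (hH hg)
  have g1 : π g ∈ N[A.map π] := by
    have := map_le_norm_map π (eQ ▸ le_norm_piCoreOf : H ≤ N[(A.map π).comap π]) (mem_map_of_mem π hg)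
    rwa [map_comap_eq_self_of_surjective sπ] at this
  have k1 : k ∈ N[A.map π] := (mul_mem_cancel_right (le_normalizer hα)).1 (e ▸ g1)
  have k2 : k ∈ C[A.map π] := le_cent_of_inf_eq_bot (H := K ⊓ N[A.map π]) inf_le_right
    (le_norm_inf (le_top.trans nK) (le_normalizer.trans le_normalizer))
    (eq_bot_iff.2 ((inf_le_inf_right _ inf_le_left).trans dKA.le)) ⟨(l0 hk).1, k1⟩
  have k3 : k = 1 := mem_bot.1 (l1.le ⟨hk, k2⟩)
  rw [mem_comap, ← e, k3, one_mul]; exact hα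

theorem npc_of_norm_JA (hp5 : 5 ≤ p) (hS : Syl p S ⊤) (hN : NPC p N[J[0, S]]) :
    NPC p (⊤ : Subgroup G) :=
  ncw_ind (wJ_char (dvd_zero p)) (fun K R _ S hS hN con _ _ pc => by
    rw [iw_J] at hN
    have e := J_eq_of_le (J_le_iff.2 fun A hA => ja_top hp5 hS con pc hA) hS.pCoreOf_le
    exact hN.mono (e ▸ le_norm_piCoreOf.trans norm_le_norm_J)) hS (by rwa [iw_J])

end CfsgH2
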