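import Mathlib

/-! Groups of paths in a graph with a group action. -/

set_option autoImplicit false
namespace CfsgH2.Lst
open FreeGroup

variable {Γ E V : Type*} [Group Γ] [MulAction Γ E] [MulAction Γ V]

/-- the action on the free group -/
def act (Γ E : Type*) [Group Γ] [MulAction Γ E] : Γ →* MulAut (FreeGroup E) where
  toFun γ := freeGroupCongr (MulAction.toPerm γ)
  map_one' := MulEquiv.ext fun w => by
    have : (fun x : E => (1 : Γ) • x) = id := funext fun x => one_smul _ x
    simp [freeGroupCongr_apply]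
    exact (congrArg (fun f => FreeGroup.map f w) this).trans (map.id w)
  map_mul' a b := MulEquiv.ext fun w => by
    have : (fun x : E => (a * b) • x) = (fun x => a • x) ∘ fun x => b • x := funext fun x => mul_smul _ _ x
    simp only [freeGroupCongr_apply, MulAut.mul_apply]
    exact (congrArg (fun f => FreeGroup.map f w) this).trans (map.comp _ _ w).symm

/-- the action on letters -/
def sm (γ : Γ) (x : E × Bool) : E × Bool := (γ • x.1, x.2)

theorem act_mk (γ : Γ) (L : List (E × Bool)) : act Γ E γ (mk L) = mk (L.map (sm γ)) := rfl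

variable (o t : E → V)

/-- the origin of a letter -/
def src (x : E × Bool) : V := if x.2 then o x.1 else t x.1
/-- the end of a letter -/
def tgt (x : E × Bool) : V := if x.2 then t x.1 else o x.1

/-- paths -/
def Pth : V → List (E × Bool) → V → Prop
  | u, [], w => u = w
  | u, x :: L, w => src o t x = u ∧ Pth (tgt o t x) L w

variable {o t} {u v w : V} {L L' : List (E × Bool)}

theorem src_not (e : E) (b : Bool) : src o t (e, !b) = tgt o t (e, b) := by cases b <;> rfl
theorem tgt_not (e : E) (b : Bool) : tgt o t (e, !b) = src o t (e, b) := by cases b <;> rfl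

theorem pth_append : Pth o t u (L ++ L') w ↔ ∃ v, Pth o t u L v ∧ Pth o t v L' w := by
  induction L generalizing u with
  | nil => simp [Pth]
  | cons x L ih => simp only [List.cons_append, Pth, ih]; tauto

theorem Pth.step (h : Red.Step L L') (p : Pth o t u L w) : Pth o t u L' w := by
  obtain ⟨L₁, L₂, e, b⟩ := h
  obtain ⟨v, p1, p2, -, p3⟩ := pth_append.1 p
  rw [tgt_not, p2] at p3
  exact pth_append.2 ⟨v, p1, p3⟩

theorem Pth.red (h : Red L L') (p : Pth o t u L w) : Pth o t u L' w := by
  induction h with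
  | refl => exact p
  | tail _ h ih => exact ih.step h

theorem Pth.inv (p : Pth o t u L w) : Pth o t w (invRev L) u := by
  induction L generalizing u with
  | nil => exact p.symm
  | cons x L ih =>
    rw [invRev_cons]
    exact pth_append.2 ⟨_, ih p.2, src_not _ _, (tgt_not _ _).trans p.1⟩

theorem Pth.smul (ho : ∀ (γ : Γ) e, o (γ • e) = γ • o e) (ht : ∀ (γ : Γ) e, t (γ • e) = γ • t e) (γ : Γ)
    (p : Pth o t u L w) : Pth o t (γ • u) (L.map (sm γ)) (γ • w) := by
  induction L generalizing u with
  | nil => exact congrArg _ p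
  | cons x L ih =>
    obtain ⟨e, b⟩ := x
    refine ⟨?_, ?_⟩
    · rw [← p.1]; cases b <;> simp [src, sm, ho, ht]
    · have := ih p.2
      convert this using 1
      cases b <;> simp [tgt, sm, ho, ht]

variable [DecidableEq E]

theorem toWord_act (γ : Γ) (x : FreeGroup E) : (act Γ E γ x).toWord = x.toWord.map (sm γ) := by
  conv_lhs => rw [← mk_toWord (x := x), act_mk, toWord_mk]
  refine IsReduced.reduce_eq ?_
  have := isReduced_toWord (x := x)
  rw [FreeGroup.IsReduced, List.isChain_map]
  exact this.imp fun a b h e => h (smul_left_cancel γ e)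

theorem norm_act (γ : Γ) (x : FreeGroup E) : (act Γ E γ x).norm = x.norm := by
  simp [FreeGroup.norm, toWord_act]

/-- the group of paths -/
def PG (ho : ∀ (γ : Γ) e, o (γ • e) = γ • o e) (ht : ∀ (γ : Γ) e, t (γ • e) = γ • t e) (v : V) :
    Subgroup (FreeGroup E ⋊[act Γ E] Γ) where
  carrier := {g | Pth o t v g.left.toWord (g.right • v)}
  one_mem' := (one_smul _ _).symm
  mul_mem' := fun {a b} ha hb => by
    have := Pth.smul ho ht a.right hb
    rw [← toWord_act, ← mul_smul] at this
    show Pth o t v (a * b).left.toWord ((a * b).right • v)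
    rw [SemidirectProduct.mul_left, toWord_mul]
    exact Pth.red reduce.red (pth_append.2 ⟨_, ha, this⟩)
  inv_mem' := fun {a} ha => by
    have := Pth.smul ho ht a.right⁻¹ (Pth.inv ha)
    rwa [← toWord_inv, ← toWord_act, inv_smul_smul] at this

theorem fin_conj (ho : ∀ (γ : Γ) e, o (γ • e) = γ • o e) (ht : ∀ (γ : Γ) e, t (γ • e) = γ • t e)
    (tr : ∀ u, ∃ δ : Γ, δ • v = u) (m : ℕ) : ∀ H ≤ PG ho ht v, (∀ h ∈ H, h.left.norm ≤ m) →
      ∃ g ∈ PG ho ht v, ∀ h ∈ H, (g * h * g⁻¹).left = 1 := by
  induction m with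
  | zero => exact fun H _ h => ⟨1, one_mem _, fun k hk => by simpa using h k hk⟩
  | succ m ih =>
  intro H l b
  by_cases c : ∀ h ∈ H, h.left.norm ≤ m
  · exact ih H l c
  push Not at c
  obtain ⟨h₀, m₀, c⟩ := c
  obtain ⟨a, L₀, e₀⟩ : ∃ a L₀, h₀.left.toWord = a :: L₀ := List.exists_cons_of_length_pos
    ((Nat.zero_le _).trans_lt c)
  have first : ∀ k ∈ H, k.left ≠ 1 → ∃ L, k.left.toWord = a :: L := fun k hk k1 => by
    obtain ⟨x, L, e⟩ := List.exists_cons_of_ne_nil (mt toWord_eq_nil_iff.1 k1)
    refine ⟨L, e.trans (congrArg (· :: L) (by_contra fun ne => ?_))⟩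
    have := b _ (mul_mem (inv_mem m₀) hk)
    rw [SemidirectProduct.mul_left, SemidirectProduct.inv_left, SemidirectProduct.inv_right, ← _root_.map_mul, norm_act,
      FreeGroup.norm, toWord_mul, toWord_inv, e, IsReduced.reduce_eq] at this
    · simp [FreeGroup.norm] at this c
      omega
    · have r1 := isReduced_toWord (x := h₀.left⁻¹)
      have r2 := isReduced_toWord (x := k.left)
      rw [toWord_inv] at r1
      rw [e₀, invRev_cons] at r1 ⊢
      rw [e] at r2
      refine r1.append_overlap (isReduced_cons_cons.2 ⟨fun e1 => ?_, r2⟩) (by simp [invRev])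
      obtain ⟨x1, x2⟩ := x
      obtain ⟨a1, a2⟩ := a
      cases x2 <;> cases a2 <;> simp_all
  obtain ⟨δ, hδ⟩ := tr (tgt o t a)
  have s₀ : src o t a = v := by
    have : Pth o t v h₀.left.toWord _ := l m₀
    rw [e₀] at this; exact this.1
  let g₀ : FreeGroup E ⋊[act Γ E] Γ := ⟨mk [a], δ⟩
  have g1 : g₀ ∈ PG ho ht v := ⟨s₀, hδ.symm⟩
  have lf : ∀ h : FreeGroup E ⋊[act Γ E] Γ, (g₀⁻¹ * h * g₀⁻¹⁻¹).left.norm =
      ((mk [a])⁻¹ * h.left * mk [sm h.right a]).norm := fun h => by
    rw [inv_inv, ← norm_act δ⁻¹ (_ * _ * _)]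
    simp only [SemidirectProduct.mul_left, SemidirectProduct.inv_left, SemidirectProduct.inv_right,
      SemidirectProduct.mul_right, _root_.map_mul, MulAut.mul_apply, g₀]
    rfl
  obtain ⟨g, g2, g3⟩ := ih (H.map (MulAut.conj g₀⁻¹).toMonoidHom) (by
    rintro _ ⟨h, hh, rfl⟩
    exact mul_mem (mul_mem (inv_mem g1) (l hh)) (inv_mem (inv_mem g1))) (by
    rintro _ ⟨h, hh, rfl⟩
    refine (lf h).trans_le ?_
    by_cases h1 : h.left = 1
    · have e : (h * h₀).left.toWord = sm h.right a :: L₀.map (sm h.right) := by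
        rw [SemidirectProduct.mul_left, h1, one_mul, toWord_act, e₀, List.map_cons]
      obtain ⟨L, e'⟩ := first _ (mul_mem hh m₀) (fun f => by simp [f] at e)
      rw [h1, (List.cons.inj (e.symm.trans e')).1, mul_one, inv_mul_cancel, FreeGroup.norm_one]
      exact m.zero_le
    obtain ⟨L, e⟩ := first h hh h1
    obtain ⟨L', e'⟩ := first _ (inv_mem hh) (by simpa using h1)
    have e2 : h.left.toWord = invRev (L'.map (sm h.right)) ++ invRev [sm h.right a] := by
      rw [← invRev_cons, ← List.map_cons, ← e', ← toWord_act, SemidirectProduct.inv_left, ← MulAut.mul_apply,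
        ← _root_.map_mul, mul_inv_cancel, _root_.map_one, MulAut.one_apply, toWord_inv, invRev_invRev]
    have n := b h hh
    rcases hL : invRev (L'.map (sm h.right)) with _ | ⟨x, L''⟩
    · rw [hL, e] at e2
      have := congrArg Prod.snd (List.cons.inj e2).1
      simp [sm] at this
    · rw [hL] at e2
      obtain rfl : a = x := (List.cons.inj (e.symm.trans e2)).1
      have e3 : h.left = mk [a] * mk L'' * (mk [sm h.right a])⁻¹ := by
        rw [← mk_toWord (x := h.left), e2, inv_mk, mul_mk, mul_mk]; rfl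
      rw [FreeGroup.norm, e2] at n
      rw [e3, show ∀ x y z : FreeGroup E, x⁻¹ * (x * y * z⁻¹) * z = y from fun x y z => by group]
      refine norm_mk_le.trans ?_
      simp at n
      omega)
  exact ⟨g * g₀⁻¹, mul_mem g2 (inv_mem g1), fun h hh => by
    have := g3 _ ⟨h, hh, rfl⟩
    simpa [mul_assoc] using this⟩

end CfsgH2.Lst
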