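import Cfsg.Agent.H2.Lst1
import Cfsg.Agent.L0.Model

/-! Realisation of a fusion system by a group of paths. -/

set_option autoImplicit false
universe u
namespace CfsgH2.Lst
open Cfsg Subgroup CfsgL0 Function
open Cfsg.FusionSystem hiding inv_mem center

theorem exists_perm {S : Type*} [Group S] [Finite S] {P : Subgroup S} (φ : P →* S) (hφ : Injective φ) :
    ∃ σ : Equiv.Perm S, ∀ (x : P) (s : S), σ (s * x) = σ s * φ x := by
  have c : Nat.card (S ⧸ P) = Nat.card (S ⧸ φ.range) := by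
    have h1 := P.card_eq_card_quotient_mul_card_subgroup
    have h2 := φ.range.card_eq_card_quotient_mul_card_subgroup
    rw [← Nat.card_congr (MonoidHom.ofInjective hφ).toEquiv, h1] at h2
    exact Nat.eq_of_mul_eq_mul_right Nat.card_pos h2
  obtain ⟨b⟩ := Finite.card_eq.1 c
  have m : ∀ s : S, (s : S ⧸ P).out⁻¹ * s ∈ P := fun s => QuotientGroup.eq.1 (QuotientGroup.out_eq' _)
  let f : S → S := fun s => (b (s : S ⧸ P)).out * φ ⟨_, m s⟩
  have i : Injective f := fun s s' e => by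
    have e1 : ((f s : S) : S ⧸ φ.range) = b (s : S ⧸ P) := by
      rw [QuotientGroup.mk_mul_of_mem _ (MonoidHom.mem_range.2 ⟨_, rfl⟩), QuotientGroup.out_eq']
    have e2 : ((f s' : S) : S ⧸ φ.range) = b (s' : S ⧸ P) := by
      rw [QuotientGroup.mk_mul_of_mem _ (MonoidHom.mem_range.2 ⟨_, rfl⟩), QuotientGroup.out_eq']
    have e3 : (s : S ⧸ P) = s' := b.injective (by rw [← e1, ← e2, e])
    simp only [f, e3, mul_right_inj] at e
    simpa using hφ e
  refine ⟨Equiv.ofBijective f (Finite.injective_iff_bijective.1 i), fun x s => ?_⟩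
  simp only [Equiv.ofBijective_apply, f, QuotientGroup.mk_mul_of_mem _ x.2, mul_assoc, ← map_mul]
  congr 2
  exact Subtype.ext (mul_assoc _ _ _).symm

variable {Ω : Type u} [Group Ω] {S : Subgroup Ω} (F : FusionSystem S)

/-- the regular representation -/
def lam (S : Subgroup Ω) : S →* Equiv.Perm S where
  toFun s := Equiv.mulRight s⁻¹
  map_one' := by ext; simp
  map_mul' a b := by ext; simp [mul_assoc]

theorem lam_inj : Injective (lam S) := fun a b e => by
  simpa [lam] using DFunLike.congr_fun e 1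

theorem lam_inj' {x y : Ω} (hx : x ∈ S) (hy : y ∈ S) (e : ex (lam S) x = ex (lam S) y) : x = y := by
  rw [ex_apply _ hx, ex_apply _ hy] at e
  exact congrArg Subtype.val (lam_inj e)

/-- the maps of the system -/
abbrev Ix := {x : Subgroup Ω × (Ω → Ω) // M F x.1 x.2}

theorem exists_sig [Finite S] (i : Ix F) : ∃ σ : Equiv.Perm S, ∀ x ∈ i.1.1,
    σ * ex (lam S) x * σ⁻¹ = ex (lam S) (i.1.2 x) := by
  obtain ⟨⟨P, f⟩, hf⟩ := i
  let φ : P.subgroupOf S →* S := MonoidHom.mk' (fun x => ⟨f x.1.1, hf.mem x.2⟩) fun a b =>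
    Subtype.ext (hf.mul a.2 b.2)
  obtain ⟨σ, h⟩ := exists_perm φ fun a b e => Subtype.ext (Subtype.ext (hf.inj a.2 b.2 (congrArg Subtype.val e)))
  refine ⟨σ, fun x hx => ?_⟩
  rw [mul_inv_eq_iff_eq_mul, ex_apply _ (hf.le hx), ex_apply _ (hf.mem hx)]
  ext s
  have := h (⟨⟨x, hf.le hx⟩, hx⟩⁻¹) s
  rw [map_inv] at this
  exact congrArg Subtype.val this

variable [Finite S]

/-- the permutation attached to a map -/
noncomputable def sg (i : Ix F) : Equiv.Perm S := (exists_sig F i).choose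

theorem sg_spec (i : Ix F) {x : Ω} (hx : x ∈ i.1.1) :
    sg F i * ex (lam S) x * (sg F i)⁻¹ = ex (lam S) (i.1.2 x) := (exists_sig F i).choose_spec x hx

/-- the edge groups -/
noncomputable def KK (i : Ix F) : Subgroup (Equiv.Perm S) := (i.1.1.subgroupOf S).map ((MulAut.conj (sg F i)).toMonoidHom.comp (lam S))

theorem mem_KK {i : Ix F} {a : Equiv.Perm S} : a ∈ KK F i ↔ ∃ x ∈ i.1.1, a = ex (lam S) (i.1.2 x) :=
  ⟨fun ⟨x, h, e⟩ => ⟨x, h, by rw [← sg_spec F i (x := x) h, ex_coe, ← e]; rfl⟩,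
    fun ⟨x, h, e⟩ => ⟨⟨x, i.2.le h⟩, h, by rw [e, ← sg_spec F i h, ex_apply _ (i.2.le h)]; rfl⟩⟩

theorem lam_mem {x : Ω} (hx : x ∈ S) : ex (lam S) x ∈ (lam S).range := ⟨_, (ex_apply _ hx).symm⟩

/-- edges -/
abbrev Ed := Σ i : Ix F, Equiv.Perm S ⧸ KK F i
/-- vertices -/
abbrev Vx (S : Subgroup Ω) := Equiv.Perm S ⧸ (lam S).range

/-- origin -/
noncomputable def oo (e : Ed F) : Vx S := (e.2.out : Equiv.Perm S)
/-- end -/
noncomputable def tt (e : Ed F) : Vx S := (e.2.out * sg F e.1 : Equiv.Perm S)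

theorem oo_mk (i : Ix F) (δ : Equiv.Perm S) : oo F ⟨i, δ⟩ = δ := by
  obtain ⟨x, h, e⟩ := (mem_KK F).1 (QuotientGroup.eq.1 (QuotientGroup.out_eq' (δ : Equiv.Perm S ⧸ KK F i)))
  exact QuotientGroup.eq.2 (e ▸ lam_mem (i.2.mem h))

theorem tt_mk (i : Ix F) (δ : Equiv.Perm S) : tt F ⟨i, δ⟩ = (δ * sg F i : Equiv.Perm S) := by
  obtain ⟨x, h, e⟩ := (mem_KK F).1 (QuotientGroup.eq.1 (QuotientGroup.out_eq' (δ : Equiv.Perm S ⧸ KK F i)))
  refine QuotientGroup.eq.2 ?_
  rw [← sg_spec F i h] at e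
  rw [show ∀ a b c : Equiv.Perm S, (a * b)⁻¹ * (c * b) = b⁻¹ * (a⁻¹ * c) * b from fun a b c => by group, e]
  simpa [mul_assoc] using lam_mem (i.2.le h)

theorem oo_smul (γ : Equiv.Perm S) (e : Ed F) : oo F (γ • e) = γ • oo F e := by
  obtain ⟨i, δ⟩ := e
  induction δ using QuotientGroup.induction_on with
  | H δ => rw [oo_mk]; exact oo_mk F i (γ * δ)

theorem tt_smul (γ : Equiv.Perm S) (e : Ed F) : tt F (γ • e) = γ • tt F e := by
  obtain ⟨i, δ⟩ := e
  induction δ using QuotientGroup.induction_on with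
  | H δ => rw [tt_mk]; exact (tt_mk F i (γ * δ)).trans (by rw [mul_assoc]; rfl)

theorem shift {P : Subgroup Ω} {a : Ω → Equiv.Perm S} {δ δ' : Equiv.Perm S} (e : (δ : Vx S) = δ')
    (h : ∃ f, M F P f ∧ ∀ x ∈ P, δ' * ex (lam S) (f x) * δ'⁻¹ = a x) :
    ∃ f, M F P f ∧ ∀ x ∈ P, δ * ex (lam S) (f x) * δ⁻¹ = a x := by
  obtain ⟨f, hf, b⟩ := h
  obtain ⟨s, hs⟩ := QuotientGroup.eq.1 e
  refine ⟨_, hf.comp (M_conj le_rfl s.2) fun x hx => hf.mem hx, fun x hx => ?_⟩
  rw [(homOn_ex _).conj s.2 (hf.mem hx), ex_coe, hs, ← b x hx]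
  group

theorem real_path {P : Subgroup Ω} (hP : P ≤ S) (γ : Equiv.Perm S) (L : List (Ed F × Bool)) :
    ∀ δ : Equiv.Perm S, Pth (oo F) (tt F) (δ : Vx S) L (γ : Vx S) →
      (∀ x ∈ P, ∀ l ∈ L, (γ * ex (lam S) x * γ⁻¹) • l.1 = l.1) →
      ∃ f, M F P f ∧ ∀ x ∈ P, δ * ex (lam S) (f x) * δ⁻¹ = γ * ex (lam S) x * γ⁻¹ := by
  induction L with
  | nil => exact fun δ p _ => shift F p ⟨_, M_id hP, fun _ _ => rfl⟩
  | cons l L ih =>
    intro δ p h
    obtain ⟨⟨i, η⟩, b⟩ := l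
    induction η using QuotientGroup.induction_on with
    | H η =>
    have k : ∀ x ∈ P, ∃ z ∈ i.1.1, η⁻¹ * (γ * ex (lam S) x * γ⁻¹) * η = ex (lam S) (i.1.2 z) := fun x hx => by
      have h1 := h x hx _ List.mem_cons_self
      have h2 : (η : Equiv.Perm S ⧸ KK F i) = (γ * ex (lam S) x * γ⁻¹ * η : Equiv.Perm S) :=
        (eq_of_heq (Sigma.mk.inj h1).2).symm
      rw [mul_assoc]
      exact (mem_KK F).1 (QuotientGroup.eq.1 h2)
    have h' := fun x hx l hl => h x hx l (List.mem_cons_of_mem _ hl)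
    cases b with
    | true =>
      obtain ⟨f, hf, c⟩ := ih (η * sg F i) (tt_mk F i η ▸ p.2) h'
      have m : ∀ x ∈ P, f x ∈ i.1.1 := fun x hx => by
        obtain ⟨z, hz, e⟩ := k x hx
        rw [← c x hx, ← sg_spec F i hz] at e
        rw [lam_inj' (hf.mem hx) (i.2.le hz) (by
          calc ex (lam S) (f x) = (sg F i)⁻¹ * (η⁻¹ * (η * sg F i * ex (lam S) (f x) * (η * sg F i)⁻¹) * η) *
                sg F i := by group
            _ = _ := by rw [e]; group)]
        exact hz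
      refine shift F (p.1.symm.trans (oo_mk F i η)) ⟨_, hf.comp i.2 m, fun x hx => ?_⟩
      rw [← sg_spec F i (m x hx), ← c x hx]; group
    | false =>
      obtain ⟨f, hf, c⟩ := ih η (oo_mk F i η ▸ p.2) h'
      obtain ⟨g, g1, g2, g3, -⟩ := i.2.exists_inv
      have m : ∀ x ∈ P, f x ∈ im i.1.1 i.1.2 := fun x hx => by
        obtain ⟨z, hz, e⟩ := k x hx
        rw [← c x hx] at e
        rw [lam_inj' (hf.mem hx) (i.2.mem hz) (by rw [← e]; group)]
        exact mem_im_of _ hz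
      refine shift F (p.1.symm.trans (tt_mk F i η)) ⟨_, hf.comp g1 m, fun x hx => ?_⟩
      have := sg_spec F i (g3 _ (m x hx)).1
      rw [(g3 _ (m x hx)).2] at this
      rw [← c x hx, ← this]; group

open Classical in
theorem main : ∃ (G : Type u) (_ : Group G) (ι : S →* G), F.IsRealizedBy ι ∧
    (∀ H : Subgroup G, Finite H → ∃ g : G, ∀ h ∈ H, g * h * g⁻¹ ∈ ι.range) ∧
    ∃ N : Subgroup G, N.Normal ∧ IsFreeGroup N ∧ N.index ∣ (Nat.card S).factorial := by
  let v : Vx S := ((1 : Equiv.Perm S) : Vx S)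
  let G := PG (oo_smul F) (tt_smul F) v
  have sv : ∀ γ : Equiv.Perm S, γ • v = (γ : Vx S) := fun γ => congrArg _ (mul_one γ)
  let ι : S →* G := (SemidirectProduct.inr.comp (lam S)).codRestrict G fun s => by
    show v = lam S s • v
    rw [sv]; exact QuotientGroup.eq.2 ⟨s, by simp⟩
  have eι : ∀ x ∈ S, (ex ι x : G).1 = SemidirectProduct.inr (ex (lam S) x) := fun x hx => by
    rw [ex_apply _ hx, ex_apply _ hx]; rfl
  refine ⟨G, inferInstance, ι, realized_iff.2 ⟨fun a b e => lam_inj (SemidirectProduct.inr_injective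
    (congrArg Subtype.val e)), fun P hP f m => ⟨fun hf => ?_, fun ⟨g, hg⟩ => ?_⟩⟩, fun H hH => ?_,
    (SemidirectProduct.rightHom.comp G.subtype).ker, inferInstance, ?_, ?_⟩
  · let i : Ix F := ⟨(P, f), hf⟩
    let e : Ed F := ⟨i, (1 : Equiv.Perm S)⟩
    refine ⟨⟨⟨FreeGroup.of e, sg F i⟩, oo_mk F i 1, (tt_mk F i 1).trans (by rw [sv, one_mul])⟩, fun x hx => ?_⟩
    have fx : ex (lam S) (f x) • e = e := congrArg (Sigma.mk i) (QuotientGroup.eq.2 (by
      simpa using (mem_KK F).2 ⟨x, hx, rfl⟩))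
    rw [eq_mul_inv_iff_mul_eq]
    refine Subtype.ext ?_
    rw [coe_mul, coe_mul, eι _ (m x hx), eι _ (hP hx)]
    refine SemidirectProduct.ext ?_ ?_
    · simp only [SemidirectProduct.mul_left, SemidirectProduct.left_inr, SemidirectProduct.right_inr, one_mul,
        map_one, mul_one]
      exact congrArg FreeGroup.of fx
    · simp only [SemidirectProduct.mul_right, SemidirectProduct.right_inr]
      rw [← sg_spec F i hx]; simp
  · have k : ∀ x ∈ P, SemidirectProduct.inr (ex (lam S) (f x)) * g.1 = g.1 * SemidirectProduct.inr (ex (lam S) x) :=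
      fun x hx => by
        rw [← eι _ (m x hx), ← eι _ (hP hx), hg x hx]; simp
    have k1 : ∀ x ∈ P, ex (lam S) (f x) = g.1.right * ex (lam S) x * g.1.right⁻¹ := fun x hx => by
      rw [eq_mul_inv_iff_mul_eq]; simpa using congrArg SemidirectProduct.right (k x hx)
    obtain ⟨f', a, b⟩ := real_path F hP g.1.right g.1.left.toWord 1 (sv _ ▸ g.2) fun x hx l hl => by
      have h1 : act _ _ (ex (lam S) (f x)) g.1.left = g.1.left := by
        simpa using congrArg SemidirectProduct.left (k x hx)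
      have h2 := toWord_act (ex (lam S) (f x)) g.1.left
      rw [h1] at h2
      rw [← k1 x hx]
      exact congrArg Prod.fst (List.map_inj_left.1 (h2.symm.trans (List.map_id _).symm) l hl)
    exact a.congr fun x hx => lam_inj' (m x hx) (a.mem hx) (by rw [k1 x hx, ← b x hx]; simp)
  · obtain ⟨m, hm⟩ := (Set.toFinite (Set.range fun h : H => h.1.1.left.norm)).bddAbove
    obtain ⟨g, hg, k⟩ := fin_conj (oo_smul F) (tt_smul F) (v := v) (fun u => by
      induction u using QuotientGroup.induction_on with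
      | H u => exact ⟨u, sv u⟩) m (H.map G.subtype) (map_subtype_le _) (by
      rintro _ ⟨h, hh, rfl⟩; exact hm ⟨⟨h, hh⟩, rfl⟩)
    refine ⟨⟨g, hg⟩, fun h hh => ?_⟩
    have k1 := k _ ⟨h, hh, rfl⟩
    have k2 : Pth _ _ v _ _ := (⟨g, hg⟩ * h * ⟨g, hg⟩⁻¹ : G).2
    generalize hy : (⟨g, hg⟩ * h * ⟨g, hg⟩⁻¹ : G) = y at k2
    have k3 : y.1.left = 1 := hy ▸ k1
    rw [k3, sv] at k2
    obtain ⟨s, hs⟩ := QuotientGroup.eq.1 k2
    exact ⟨s, Subtype.ext (SemidirectProduct.ext k3.symm (hs.trans (by simp)))⟩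
  · let j : (SemidirectProduct.rightHom.comp G.subtype).ker →* FreeGroup (Ed F) := MonoidHom.mk'
      (fun x => x.1.1.left) fun a b => by
        have : a.1.1.right = 1 := a.2
        simp [this]
    have hj : Injective j := fun a b e => Subtype.ext (Subtype.ext (SemidirectProduct.ext e
      ((show a.1.1.right = 1 from a.2).trans (show b.1.1.right = 1 from b.2).symm)))
    exact IsFreeGroup.ofMulEquiv (MonoidHom.ofInjective hj).symm
  · rw [index_ker, ← Nat.card_perm]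
    exact card_subgroup_dvd_card _

end CfsgH2.Lst
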