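import Cfsg.Agent.H2.PU9
import Cfsg.Agent.L0.CD

/-! Centrally large subgroups in the rank one pushing-up situation. -/

set_option autoImplicit false
namespace CfsgH2
open Subgroup Function Cfsg CfsgL0 CfsgBG Matrix
open scoped commutatorElement MatrixGroups Pointwise

variable {G : Type*} [Group G] {p e : ℕ} {V A B D E K L M P Q Z S X Y W U R : Subgroup G}

/-- centrally large subgroups of `S` -/
structure CLa (S R : Subgroup G) : Prop where
  le : R ≤ S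
  max : ∀ X ≤ S, o[X] * o[Z[X]] ≤ o[R] * o[Z[R]]

/-- minimal centrally large subgroups of `S` -/
structure MCa (S R : Subgroup G) : Prop extends CLa S R where
  min : ∀ X ≤ R, CLa S X → X = R

theorem CLa.of_card (h : CLa S P) (l : R ≤ S) (c : o[P] * o[Z[P]] ≤ o[R] * o[Z[R]]) : CLa S R :=
  ⟨l, fun X hX => (h.max X hX).trans c⟩

theorem inj_CLa {G' : Type*} [Group G'] {f : G →* G'} (hf : Injective f) :
    CLa (S.map f) (R.map f) ↔ CLa S R := by
  refine ⟨fun ⟨h1, h2⟩ => ⟨(inj_le hf).1 h1, fun X hX => ?_⟩, fun ⟨h1, h2⟩ => ⟨map_mono h1, fun X hX => ?_⟩⟩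
  · simpa only [inj_inf_cent hf, card_map_of_injective hf] using h2 _ (map_mono hX)
  · obtain ⟨X, b, rfl⟩ := exists_map_eq_le hX
    simpa only [inj_inf_cent hf, card_map_of_injective hf] using h2 X b

theorem inj_MCa {G' : Type*} [Group G'] {f : G →* G'} (hf : Injective f) :
    MCa (S.map f) (R.map f) ↔ MCa S R := by
  refine ⟨fun ⟨h1, h2⟩ => ⟨(inj_CLa hf).1 h1, fun X hX c => Subgroup.map_injective hf
    (h2 _ (map_mono hX) ((inj_CLa hf).2 c))⟩, fun ⟨h1, h2⟩ => ⟨(inj_CLa hf).2 h1, fun X hX c => ?_⟩⟩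
  obtain ⟨X, b, rfl⟩ := exists_map_eq_le hX
  rw [h2 X b ((inj_CLa hf).1 c)]

theorem CLa.cj (h : CLa S P) {g : G} (l : P:^g ≤ S) : CLa S (P:^g) :=
  h.of_card l (by rw [inj_inf_cent (cj_injective g), card_map_cj, card_map_cj])

theorem MCa.cj (h : MCa S P) {g : G} (l : P:^g ≤ S) : MCa S (P:^g) :=
  ⟨h.toCLa.cj l, fun X hX c => by
    rw [← h.min _ (le_map_cj_iff.1 hX) (c.cj ((le_map_cj_iff.1 hX).trans h.le)), map_cj_cj_inv]⟩

theorem der_sup (ab : Ab[E]) (c : E ≤ C[R]) : ⁅E ⊔ R, E ⊔ R⁆ = ⁅R, R⁆ :=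
  le_antisymm ((comm_le_of_sup (K := ⊥) rfl (comm_eq_bot_iff.2 c).le (comm_self_eq_bot_iff.2 ab).le
    (le_top.trans (normalizer_eq_top _).ge) (sup_le (le_norm_of_le_cent c) le_normalizer)).trans
    (bot_sup_eq _).le) (commutator_mono le_sup_right le_sup_right)

variable [Finite G]

theorem CLa_top : CLa ⊤ R ↔ CL R := by
  refine ⟨fun h => ?_, fun h => ⟨le_top, fun X _ => (cl_le X).trans (cl_iff'.1 h).ge⟩⟩
  obtain ⟨X, x⟩ := exists_cl (G := G)
  exact cl_iff'.2 (le_antisymm (cl_le R) ((cl_iff'.1 x).ge.trans (h.max X le_top)))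

theorem MCa_top : MCa ⊤ R ↔ IsMinimalCentrallyLarge R :=
  ⟨fun h => ⟨CLa_top.1 h.toCLa, fun X l c => h.min X l (CLa_top.2 c)⟩,
    fun h => ⟨CLa_top.2 h.1, fun X l c => h.2 X l (CLa_top.1 c)⟩⟩

theorem CLa_sub {R : Subgroup S} : CL R ↔ CLa S (R.map S.subtype) := by
  rw [← CLa_top, ← inj_CLa S.subtype_injective, map_subtype_top]

theorem MCa_sub {R : Subgroup S} : IsMinimalCentrallyLarge R ↔ MCa S (R.map S.subtype) := by
  rw [← MCa_top, ← inj_MCa S.subtype_injective, map_subtype_top]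

theorem CLa.sub (h : CLa S R) : CL (R.subgroupOf S) := by rwa [CLa_sub, map_subgroupOf_eq_of_le h.le]
theorem MCa.sub (h : MCa S R) : IsMinimalCentrallyLarge (R.subgroupOf S) := by
  rwa [MCa_sub, map_subgroupOf_eq_of_le h.le]

theorem CLa.cent (h : CLa S R) : S ⊓ C[R] ≤ R := fun x hx =>
  h.sub.cent_le (show (⟨x, hx.1⟩ : S) ∈ C[R.subgroupOf S] from fun y hy => Subtype.ext (hx.2 y hy))

theorem MCa.der (h : MCa S P) (h' : MCa S R) : ⁅P, P⁆ = ⁅R, R⁆ := by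
  simpa only [map_commutator, map_subgroupOf_eq_of_le h.le, map_subgroupOf_eq_of_le h'.le] using
    congrArg (Subgroup.map S.subtype) (mcl_comm h.sub h'.sub)

theorem MCa.of_card (h : MCa S P) (c : CLa S R) (e : o[R] ≤ o[P]) : MCa S R := by
  obtain ⟨X, l, x⟩ := exists_mcl c.sub
  have := (mcl_card h.sub x).1
  rw [← card_map_of_injective S.subtype_injective, map_subgroupOf_eq_of_le h.le,
    ← card_map_of_injective (K := X) S.subtype_injective] at this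
  rw [← eq_of_le_of_card_ge (map_le_iff_le_comap.2 l) (e.trans this.le)]
  exact MCa_sub.1 x

theorem mcl_char {Q : Subgroup G} (h : IsMinimalCentrallyLarge Q) : (⁅Q, Q⁆).Characteristic :=
  characteristic_iff_map_eq.2 fun φ => by
    have := (inj_MCa (f := φ.toMonoidHom) φ.injective).2 (MCa_top.2 h)
    rw [map_top_of_surjective _ φ.surjective] at this
    rw [map_commutator, this.der (MCa_top.2 h)]

theorem mz_bdd : BddAbove {k : ℕ | ∃ Q : Subgroup G, IsMinimalCentrallyLarge Q ∧ o[ΩZ[p, Q]] = k} :=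
  ((Set.finite_range fun Q : Subgroup G => o[ΩZ[p, Q]]).subset (by
    rintro _ ⟨Q, -, e⟩; exact ⟨Q, e⟩)).bddAbove

theorem exists_mz (p : ℕ) : ∃ Q : Subgroup G, IsMinimalCentrallyLarge Q ∧
    o[ΩZ[p, Q]] = maxOmegaCenterOfMinimalCL p G := by
  obtain ⟨R, r⟩ := exists_cl (G := G)
  obtain ⟨Q, -, q⟩ := exists_mcl r
  exact Nat.sSup_mem (s := {k : ℕ | ∃ Q : Subgroup G, IsMinimalCentrallyLarge Q ∧ o[ΩZ[p, Q]] = k})
    ⟨_, Q, q, rfl⟩ mz_bdd

theorem le_mz (h : IsMinimalCentrallyLarge Q) : o[ΩZ[p, Q]] ≤ maxOmegaCenterOfMinimalCL p G :=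
  le_csSup mz_bdd ⟨Q, h, rfl⟩

variable [hp : Fact p.Prime]

theorem phi_sup (el : IsElementaryAbelian p E) (c : E ≤ C[R]) (r : PG[p, R]) : Φ[E ⊔ R] = Φ[R] := by
  have n := le_norm_of_le_cent c
  refine le_antisymm (phi_le_of (p := p) ((der_sup el.1 c).le.trans (comm_le_phi r.isNilpotent))
    fun x hx => ?_) (phi_mono (isPGroup_sup (elem_pgroup el) r (.inl n)) le_sup_right)
  obtain ⟨u, hu, v, hv, rfl⟩ := (mem_sup_of_norm n).1 hx
  rw [(show Commute u v from (c hu v hv).symm).mul_pow, el.2 u hu, one_mul]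
  exact pow_mem_phi r hv

namespace R1
variable (h : R1 p S M L Q Z)
include h

theorem card_sup (l : X ≤ Q) (e : Z ⊓ X = Z ⊓ C[S]) : o[Z ⊔ X] = o[X] * Q.relIndex S := by
  have e1 := card_sup_mul_card_inf (le_norm_of_le_cent (h.ZC.trans (cent_anti l)))
  rw [e, h.nm.cV, h.idx, mul_right_comm] at e1
  rw [Nat.eq_of_mul_eq_mul_right (card_pos' _) e1, mul_comm]

theorem idx_le (l : K ≤ S) : Q.relIndex K ≤ Q.relIndex S :=
  relIndex_le_of_le_right l FiniteIndex.index_ne_zero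

theorem sup_of (l : K ≤ S) (i : Q.relIndex S ≤ Q.relIndex K) : K ⊔ Q = S := by
  refine eq_of_le_of_card_ge (sup_le l h.QS) ?_
  rw [← card_mul_relIndex h.QS, ← card_mul_relIndex (le_sup_right : Q ≤ K ⊔ Q),
    relIndex_sup_of_norm (l.trans (h.SL.trans h.nQ))]
  exact Nat.mul_le_mul_left _ i

theorem card_eq (e : K ⊔ Q = S) : o[K] = o[K ⊓ Q] * Q.relIndex S := by
  rw [← e, relIndex_sup_of_norm (le_sup_left.trans (e.le.trans (h.SL.trans h.nQ))), inf_comm,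
    card_inf_mul_relIndex]

theorem inf_eq (l : K ≤ S) (k : ¬ K ≤ Q) (c : X ≤ C[K]) (c' : Z ⊓ C[S] ≤ X) : Z ⊓ (X ⊓ Q) = Z ⊓ C[S] :=
  le_antisymm ((inf_le_inf_left _ (inf_le_left.trans c)).trans (h.cent_of' l k).le)
    (le_inf inf_le_left (le_inf c' (inf_le_left.trans h.ZQ)))

theorem mc (m : MCa S P) (k : ¬ P ≤ Q) : Z[P] ⊔ Q = S ∧ MCa S (Z ⊔ P ⊓ Q) := by
  have z : Z ⊓ C[S] ≤ Z[P] := le_inf ((le_inf (inf_le_left.trans (h.ZQ.trans h.QS))
    (inf_le_right.trans (cent_anti m.le))).trans m.cent) (inf_le_right.trans (cent_anti m.le))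
  have l : Z ⊔ P ⊓ Q ≤ S := (sup_le h.ZQ inf_le_right).trans h.QS
  have e1 : o[Z[P] ⊓ Q] * Q.relIndex S ≤ o[Z[Z ⊔ P ⊓ Q]] := by
    rw [← h.card_sup inf_le_right (h.inf_eq m.le k inf_le_right z)]
    refine card_le_of_le (le_inf (sup_le_sup_left (inf_le_inf_right _ inf_le_left) _) ?_)
    rw [cent_sup]
    exact sup_le (le_inf (le_cent_self h.el.1) (h.ZC.trans (cent_anti inf_le_right))) (le_inf
      (inf_le_right.trans h.QC) (inf_le_left.trans (inf_le_right.trans (cent_anti inf_le_left))))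
  have e2 := (Nat.mul_le_mul_left _ e1).trans (m.max _ l)
  have e3 : o[P] ≤ o[P ⊓ Q] * Q.relIndex S := by
    rw [← card_inf_mul_relIndex Q P, inf_comm]; exact Nat.mul_le_mul_left _ (h.idx_le m.le)
  have k2 : ¬ Z[P] ≤ Q := fun f => by
    rw [inf_eq_left.2 f] at e1 e2
    have e4 := e2.trans (Nat.mul_le_mul_right _ e3)
    rw [mul_right_comm, ← mul_assoc] at e4
    have e5 := eq_of_le_of_card_ge le_sup_right (Nat.le_of_mul_le_mul_right (Nat.le_of_mul_le_mul_right e4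
      (Nat.pos_of_ne_zero FiniteIndex.index_ne_zero)) (card_pos' _))
    rw [← e5] at e1
    exact k ((m.min _ inf_le_left (m.toCLa.of_card (inf_le_left.trans m.le) ((Nat.mul_le_mul_right _ e3).trans
      (by rw [mul_assoc, mul_comm (Q.relIndex S)]; exact Nat.mul_le_mul_left _ e1)))).ge.trans inf_le_right)
  have e4 := h.card_sup inf_le_right (h.inf_eq (inf_le_left.trans m.le) k2
    (le_centralizer_iff.1 inf_le_right) (z.trans inf_le_left))
  have e5 : Z[P] ⊔ Q = S := by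
    refine h.sup_of (inf_le_left.trans m.le) (Nat.le_of_mul_le_mul_left (Nat.le_of_mul_le_mul_left
      ((e4 ▸ e2).trans (Nat.mul_le_mul e3 ?_)) (e4 ▸ card_pos' _)) (card_pos' (Z[P] ⊓ Q)))
    rw [inf_comm _ Q, card_inf_mul_relIndex]
  have e6 : o[P] = o[Z ⊔ P ⊓ Q] := e4 ▸ h.card_eq (le_antisymm (sup_le m.le h.QS)
    (e5.ge.trans (sup_le_sup_right inf_le_left _)))
  exact ⟨e5, m.of_card (m.toCLa.of_card l (Nat.mul_le_mul e6.le ((h.card_eq e5).le.trans e1))) e6.ge⟩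

theorem dec' (l : P ≤ S) (l' : E ≤ P) (e : E ⊔ Q = S) : E ⊔ P ⊓ Q = P := by
  rw [inf_comm, ← sup_inf_of_norm (.inl (l'.trans (l.trans (h.SL.trans h.nQ)))) l', e, inf_eq_right.2 l]

theorem mc_der (m : MCa S P) (k : ¬ P ≤ Q) : Z[S] ⊓ ⁅P, P⁆ ≤ C[L] := by
  obtain ⟨e, m'⟩ := h.mc m k
  have l : Z ⊔ P ⊓ Q ≤ Q := sup_le h.ZQ inf_le_right
  have n : L ≤ N[⁅P, P⁆] := fun g hg => map_cj_eq_iff.1 (by
    rw [m.der m', map_commutator, (m'.cj ((map_cj_le_of_norm l (h.nQ hg)).trans h.QS)).der m'])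
  have := h.um.sup_eq inf_le_left (le_norm_inf le_normalizer (le_norm_cent n)) fun f =>
    h.toT1.nle (h.eQ ▸ e.ge.trans (sup_le ((le_inf (inf_le_left.trans m.le) (inf_le_right.trans
      (cent_anti (comm_le_norm le_rfl le_rfl)))).trans (h.eQ ▸ h.um.cent_le n f)) le_rfl))
  rw [← this, cent_sup]
  exact inf_le_inf inf_le_right (le_centralizer_iff.1 inf_le_right)

theorem mc_phi (m : MCa S P) (k : ¬ P ≤ Q) (x : ∀ R, MCa S R → o[ΩZ[p, R]] ≤ o[ΩZ[p, P]]) :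
    ∃ R ≤ Q, MCa S R ∧ o[ΩZ[p, P]] ≤ o[ΩZ[p, R]] ∧ Φ[P] = Φ[R] := by
  obtain ⟨-, m'⟩ := h.mc m k
  have z : Z ⊓ C[S] ≤ ΩZ[p, P] := le_OZ (elem_of_le h.el inf_le_left) ((le_inf (inf_le_left.trans
    (h.ZQ.trans h.QS)) (inf_le_right.trans (cent_anti m.le))).trans m.cent) (inf_le_right.trans (cent_anti m.le))
  have c : Z ≤ C[P ⊓ Q] := h.ZC.trans (cent_anti inf_le_right)
  have e1 : o[ΩZ[p, P] ⊓ Q] * Q.relIndex S ≤ o[ΩZ[p, Z ⊔ P ⊓ Q]] := by
    rw [← h.card_sup inf_le_right (h.inf_eq m.le k OZ_cent z)]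
    refine card_le_of_le (le_OZ (elem_sup h.el (elem_of_le elem_OZ inf_le_left)
      (h.ZC.trans (cent_anti inf_le_right))) (sup_le_sup_left (inf_le_inf_right _ OZ_le) _) ?_)
    rw [cent_sup]
    exact sup_le (le_inf (le_cent_self h.el.1) c) (le_inf
      (inf_le_right.trans h.QC) (inf_le_left.trans (OZ_cent.trans (cent_anti inf_le_left))))
  have e2 : ΩZ[p, P] ⊔ Q = S := h.sup_of (OZ_le.trans m.le) (Nat.le_of_mul_le_mul_left
    ((e1.trans (x _ m')).trans (by rw [inf_comm _ Q, card_inf_mul_relIndex])) (card_pos' (ΩZ[p, P] ⊓ Q)))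
  have r : PG[p, P ⊓ Q] := h.syl.pg.to_le (inf_le_left.trans m.le)
  refine ⟨_, sup_le h.ZQ inf_le_right, m', (h.card_eq e2).le.trans e1, ?_⟩
  rw [phi_sup h.el c r, ← phi_sup elem_OZ (OZ_cent.trans (cent_anti inf_le_left)) r,
    h.dec' m.le OZ_le e2]

end R1

theorem pu_r1 (h : IsPushingUpSituation p S) (hJ : S ≤ C[centerThompsonAOf S]) :
    Z[S] ≤ C[(⊤ : Subgroup G)] ∨ ∃ M Q Z, R1 p S M ⊤ Q Z := by
  obtain ⟨-, ⟨T, rfl⟩, c, u, K, _, F, _, _, n, hF, e⟩ := h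
  obtain ⟨M, t, e⟩ := t1_top' u hF e
  rw [pCore_eq'] at c
  by_cases z : ⊤ ≤ N[ΩZ[0, (T : Subgroup G)]]
  · rw [omegaOne_zero] at z
    exact .inl (t.central inf_le_right z)
  rcases t.bau (inf_le_right.trans c) (dvd_zero p) (fun s hs _ => e s hs) z with k | ⟨A, a⟩
  · rw [omegaOne_zero, ← ZJA_eq, inf_eq_left.2 hJ] at k
    exact absurd k.1 t.nle
  · exact .inr ⟨_, _, _, a.toR1⟩

end CfsgH2
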