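import Cfsg.Agent.H2.PU11

/-! Reduction of pushing up in `p`-minimal groups to rank one groups over the Baumann subgroup. -/

set_option autoImplicit false
namespace CfsgH2
open Subgroup Function Cfsg CfsgL0 CfsgBG Matrix
open scoped commutatorElement MatrixGroups Pointwise

variable {G : Type*} [Group G] {p : ℕ} {V A B C D E H K L M P S T X Y : Subgroup G}

/-- the Baumann subgroup -/
scoped notation "Bm[" p ", " T "]" => (T ⊓ C[ΩZ[p, J[p, T]]] : Subgroup _)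

variable [Finite G] [hp : Fact p.Prime]

theorem Con.normal (h : Con p L) (l : H ≤ L) (n : L ≤ N[H]) : Con p H := by
  have nD : L ≤ N[H ⊓ C[O[{p}, H]]] := le_norm_inf n (le_norm_cent (le_norm_piCoreOf' n))
  have e := piCoreOf_eq_inf (π := {p}) l n
  have k : ⁅O[{p}, L], H ⊓ C[O[{p}, H]]⁆ ≤ O[{p}, H] := (le_inf (comm_le_left (inf_le_left.trans
    (l.trans le_norm_piCoreOf))) ((comm_le_right (piCoreOf_le.trans nD)).trans inf_le_left)).trans e.ge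
  exact (le_inf (h.le_of_piRes (inf_le_left.trans l) nD (piRes_le_cent_of_comm isPGroup_piCoreOf
    (inf_le_left.trans (l.trans le_norm_piCoreOf)) k (piRes_le.trans inf_le_right))) inf_le_left).trans e.ge

theorem T1.sup (h : T1 p S M L) (pY : PG[p, Y]) (n : L ≤ N[Y]) : T1 p (S ⊔ Y) (M ⊔ Y) (L ⊔ Y) := by
  have SL := h.um.syl.le
  have k : Y ⊓ L ≤ O[{p}, L] := le_pCoreOf inf_le_right (le_norm_inf n le_normalizer) (pY.to_le inf_le_left)
  have kS := k.trans h.um.syl.pCoreOf_le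
  have e : ∀ X ≤ L, S ≤ X → (X ⊔ Y) ⊓ L = X := fun X l l' => by
    rw [sup_inf_of_norm (.inl (l.trans n)) l, sup_eq_left.2 (kS.trans l')]
  have n' : L ⊔ Y ≤ N[Y] := sup_le n le_normalizer
  refine ⟨⟨Syl.of_qt (sup_le_sup_right SL _) n' le_sup_right (by
    rw [qt_sup_self (SL.trans n), qt_sup_self n]; exact h.um.syl.qt n) pY, sup_le_sup_right h.um.le _,
    fun f => h.um.nle ((le_inf (le_sup_left.trans f) le_rfl).trans (e M h.ML h.um.le).le), fun K k1 k2 k3 => ?_⟩,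
    sup_le_sup_right h.ML _, fun g hg g0 => ?_, fun f => h.nn (e S SL le_rfl ▸
      le_norm_inf (le_sup_left.trans f) le_normalizer)⟩
  · have := sup_inf_of_norm' (.inl n) (le_sup_right.trans k1)
    rw [inf_eq_right.2 k2] at this
    rw [this]
    exact sup_le_sup_right (h.um.max _ (le_inf SL (le_sup_left.trans k1)) inf_le_left fun f => k3 (by rw [this, f])) _
  · obtain ⟨l, hl, y, hy, rfl⟩ := (mem_sup_of_norm n).1 hg
    have l1 := map_cj_le_of_mem h.ML hl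
    rw [← map_cj_cj, map_cj_of_mem (mem_sup_right hy), Subgroup.map_sup, map_cj_eq (n hl), inf_comm,
      sup_inf_of_norm' (.inl (l1.trans n)) le_sup_right]
    have q : O[{p}, L] ⊔ Y ≤ O[{p}, L ⊔ Y] := le_pCoreOf (sup_le_sup_right piCoreOf_le _) (sup_le
      (le_norm_sup le_norm_piCoreOf n) (le_norm_of_le le_sup_right))
      (isPGroup_sup isPGroup_piCoreOf pY (.inl (piCoreOf_le.trans n)))
    refine le_trans (sup_le_sup_right (le_trans ?_ (h.ti l hl fun f => g0 (mul_mem (mem_sup_left f)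
      (mem_sup_right hy)))) _) q
    exact le_inf ((le_inf inf_le_right (inf_le_left.trans l1)).trans (e S SL le_rfl).le) inf_le_left

theorem T1.lift {G' : Type*} [Group G'] [Finite G'] {f : G →* G'} {S' M' L' : Subgroup G'}
    (h : T1 p S' M' L') (s : Syl p S K) (e : S.map f = S') (e' : K.map f = L') :
    ∃ L ≤ K, L.map f = L' ∧ T1 p S (L ⊓ M'.comap f) L := by
  obtain ⟨L, l, ⟨l1, l2⟩, m⟩ := exists_minimal_le (fun L => S ≤ L ∧ L.map f = L') ⟨s.le, e'⟩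
  have u : UM p S (L ⊓ M'.comap f) L := ⟨s.mono l1 l, le_inf l1 (map_le_iff_le_comap.1 (e.le.trans h.um.le)),
    fun k => h.um.nle (l2.ge.trans (map_le_iff_le_comap.2 (k.trans inf_le_right))), fun X x1 x2 x3 =>
      le_inf x2 (map_le_iff_le_comap.1 (h.um.max _ (e.ge.trans (map_mono x1)) ((map_mono x2).trans l2.le)
        fun k => x3 (m X ⟨x1, k⟩ x2)))⟩
  refine ⟨L, l, l2, u, inf_le_left, fun g hg g0 x hx => u.inf_le_core (N := L ⊓ O[{p}, L'].comap f) inf_le_left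
    (le_norm_inf le_normalizer fun y hy => mem_norm_of_conj fun z hz => ?_) (inf_le_inf_left _ (comap_mono
      (h.um.syl.pCoreOf_le.trans h.um.le))) ⟨hx.1, l1 hx.1, h.ti (f g) (l2.le ⟨g, hg, rfl⟩)
        (fun k => g0 ⟨hg, k⟩) ⟨e.le ⟨x, hx.1, rfl⟩, mem_map_cj.2 ?_⟩⟩,
    fun k => h.nn (by rw [← l2, ← e]; exact map_le_norm_map f k)⟩
  · simpa using conj_mem_of_norm (le_norm_piCoreOf (l2.le ⟨y, hy, rfl⟩)) hz
  · simpa using (mem_map_cj.1 hx.2).2

theorem T1.shrink (h : T1 p S M L) (l : H ≤ L) (s : Syl p B H) (e : B ⊔ O[{p}, L] = S)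
    (e' : H ⊔ O[{p}, L] = L) : ∃ L' ≤ H, L' ⊔ O[{p}, L] = L ∧ T1 p B (L' ⊓ M) L' := by
  obtain ⟨X, l0, ⟨l1, l2⟩, m⟩ := exists_minimal_le (fun X => B ≤ X ∧ X ⊔ O[{p}, L] = L) ⟨s.le, e'⟩
  have q := h.um.syl.pCoreOf_le
  have b : B ≤ S := le_sup_left.trans e.le
  refine ⟨X, l0, l2, ⟨s.mono l1 l0, le_inf l1 (b.trans h.um.le), fun k => h.um.nle (l2.ge.trans (sup_le
    (k.trans inf_le_right) (q.trans h.um.le))), fun Y y1 y2 y3 => le_inf y2 (le_sup_left.trans (h.um.max _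
      (e.ge.trans (sup_le_sup_right y1 _)) ((sup_le_sup_right y2 _).trans l2.le) fun k => y3 (m Y ⟨y1, k⟩ y2)))⟩,
    inf_le_left, fun g hg g0 => (le_inf ((inf_le_inf b (map_mono inf_le_right)).trans (h.ti g (l (l0 hg))
      fun k => g0 ⟨hg, k⟩)) (inf_le_left.trans l1)).trans (inf_piCoreOf_le (l0.trans l)), fun k => h.nn
    (l2.ge.trans (sup_le (e ▸ le_norm_sup k (l0.trans (l.trans le_norm_piCoreOf))) (q.trans le_normalizer)))⟩

theorem S2.t1 {F : Type*} [Field F] [Fintype F] [CharP F p] (h : S2 F V E A) (hV : IsElementaryAbelian p V)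
    (n : E ≤ N[V]) (fa : E ⊓ C[V] = ⊥) (hO : O[{p}, E] = ⊥) (l : A ≤ E) : ∃ M, T1 p A M E := by
  obtain ⟨i⟩ := h.iso hV n fa hO
  obtain ⟨ρ, ψ, h1, -, -, -, h5⟩ := h
  let r := MulEquiv.ofBijective ρ ((Nat.bijective_iff_surjective_and_card _).2
    ⟨MonoidHom.range_eq_top.1 h1, Nat.card_congr i.toEquiv⟩)
  have := (t1_sl (F := F) (p := p)).map (E.subtype.comp r.symm.toMonoidHom) (by
    rw [(MonoidHom.ker_eq_bot_iff (E.subtype.comp r.symm.toMonoidHom)).2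
      (E.subtype_injective.comp r.symm.injective)]
    exact inf_le_right.trans bot_le)
  rw [← h5, ← Subgroup.map_map, ← Subgroup.map_map ⊤, map_top_of_surjective _ r.symm.surjective, map_subtype_top,
    Subgroup.map_map _ _ ρ, show r.symm.toMonoidHom.comp ρ = .id _ from MonoidHom.ext r.symm_apply_apply,
    Subgroup.map_id, map_subgroupOf_eq_of_le l] at this
  exact ⟨_, this⟩

theorem FJ.cent_of (h : FJ p V P) (d : MQ V P D) (pK : PG[p, K]) (l : K ≤ P) (n : K ≤ N[D])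
    (c : K ≤ C[⁅V, D⁆]) : K ≤ C[D] := by
  obtain ⟨X, x1, x2, -, x3, x4, -⟩ := exists_step pK (elem_pgroup h.el) (inf_lt_left.2 (h.ncent d))
    (le_norm_inf (l.trans h.n) (le_norm_cent n)) (l.trans h.n)
  have t := three_subgroup (H := D) (K := K) (L := X) (by
    rw [commutator_comm K]; exact comm_eq_bot_iff.2 (x4.trans inf_le_right))
    (comm_eq_bot_iff.2 (le_centralizer_iff.1 (c.trans (cent_anti (commutator_mono x2 le_rfl)))))
  refine le_centralizer_iff.1 (comm_eq_bot_iff.1 (by_contra fun e => ?_))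
  obtain ⟨a, ha, a0⟩ := exists_ne_one e
  exact hp.out.one_lt.ne ((relIndex_eq_one.2 (le_inf x2 ((le_inf x2 ((le_centralizer_iff.1
    (comm_eq_bot_iff.1 t)).trans (cent_le_cent1 ha))).trans (d.c1 a (comm_le_left n ha) a0)))).symm.trans x3)

theorem BS.off_dec (h : BS p V P M T) (lT : B ≤ T) (el : IsElementaryAbelian p B) (h0 : B ≠ ⊥)
    (i : o[V] ≤ o[B] * o[V ⊓ C[B]]) : ∃ D ≤ B, MO p V P D ∧ ∃ B₁ ≤ B, D ⊔ B₁ = B ∧ o[B₁] < o[B] ∧
      o[V] ≤ o[B₁] * o[V ⊓ C[B₁]] := by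
  obtain ⟨D, l2, d, -⟩ := exists_mo (lT.trans h.pf.syl.le) el h0 i
  obtain ⟨C, b⟩ := h.ex_par d h.pf.syl Cl.self (l2.trans lT)
  have ab := h.pf.el.1
  have nE := (sup_le (b.d.le d.le) (b.b.le d.le)).trans h.pf.n
  have e1 : D ⊔ B ⊓ C[⁅V, D ⊔ C⁆] = B := le_antisymm (sup_le l2 inf_le_left) fun y hy => by
    obtain ⟨x, hx, -, -, k, -⟩ := h.split d b (lT hy) (le_cent_of_comm el.1 l2 hy)
    rw [← mul_inv_cancel_left x y]
    exact mul_mem (mem_sup_left hx) (mem_sup_right ⟨B.mul_mem (B.inv_mem (l2 hx)) hy, k⟩)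
  have e2 : D ⊓ (B ⊓ C[⁅V, D ⊔ C⁆]) = ⊥ := eq_bot_iff.2 fun x hx => by_contra fun x0 => b.np.neA (by
    rw [b.np.symm.Z_eq]
    refine sup_le (fun v hv => ((b.np.cent1 hx.1 x0).le ⟨comm_le_left b.np.nB hv,
      mem_centralizer_singleton_iff.2 (hx.2.2 v (commutator_mono le_rfl le_sup_right hv))⟩).2)
      (inf_le_right.trans (cent_anti le_sup_right)))
  refine ⟨D, l2, d, _, inf_le_left, e1, ?_⟩
  set B₁ := B ⊓ C[⁅V, D ⊔ C⁆]
  have c1 : o[B] = o[D] * o[B₁] := by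
    rw [← card_sup_of_disj (.inl (ab_norm el.1 l2 inf_le_left)) e2, e1]
  refine ⟨?_, i.trans ?_⟩
  · have := (one_lt_card_iff_ne_bot D).2 d.ne
    have := card_pos' B₁
    rw [c1]; nlinarith
  have c2 := card_sup_mul_card_inf (ab_norm ab (inf_le_left : V ⊓ C[B₁] ≤ V) (inf_le_left : V ⊓ C[D] ≤ V))
  rw [← inf_inf_distrib_left, ← cent_sup, sup_comm B₁, e1, le_antisymm (sup_le inf_le_left inf_le_left)
    (b.np.V_eq.ge.trans (sup_le_sup (le_inf (comm_le_left nE) (le_centralizer_iff.1 inf_le_right))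
      (inf_le_inf_left _ (cent_anti le_sup_left)))), b.np.cV, mul_right_comm] at c2
  rw [c1, ← Nat.eq_of_mul_eq_mul_right (card_pos' _) c2, mul_comm o[D], mul_assoc]

theorem BS.quad_off (h : BS p V P M T) (d : MQ V P D) (l : D ≤ T) (n : ℕ) : ∀ B ≤ T, o[B] = n →
    IsElementaryAbelian p B → o[V] ≤ o[B] * o[V ⊓ C[B]] → ⁅V, D⁆ ≤ C[B] := by
  induction n using Nat.strong_induction_on with
  | _ n ih =>
  intro B lT e el i
  by_cases h0 : B = ⊥
  · rw [h0, cent_bot]; exact le_top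
  obtain ⟨X, x1, x2, Y, y1, y2, y3, y4⟩ := h.off_dec lT el h0 i
  have m := h.mq x2 Cl.self
  rw [← y2, cent_sup]
  exact le_inf (h.fj.quad_of_comm d m (h.fj.comm_of_le d m h.pf.syl.pg l (x1.trans lT)))
    (ih _ (e ▸ y3) Y (y1.trans lT) rfl (elem_of_le el y1) y4)

theorem Par.ne (b : Par p V P M A T D C) : ¬ ⁅V, D⁆ ≤ C[C] := fun e => b.np.neB (by
  rw [b.np.Z_eq]; exact sup_le e (inf_le_right.trans (cent_anti le_sup_right)))

theorem BS.bsplit (h : BS p V P M T) (a : MO p V P A) (b : Par p V P M A T D C) (l : K ≤ T)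
    (c : K ≤ C[⁅V, D⁆]) (l' : D ≤ K) : D ⊔ K ⊓ C[D ⊔ C] = K := by
  have lP := l.trans h.pf.syl.le
  have n : K ≤ N[D] := fun y hy => map_cj_eq_iff.1 (by_contra fun e => b.ne (by
    have x := b.d.cj (lP hy)
    have := h.fj.quad_of_comm (h.mq a x) (h.mq a b.b) (le_centralizer_iff.1 (b.cm _ x
      (map_cj_le_of_mem b.le (l hy)) e))
    rwa [← map_cj_eq (h.pf.n (lP hy)), ← map_commutator, map_cj_eq (cent_le_norm _ (c hy))] at this))
  refine le_antisymm (sup_le l' inf_le_left) fun y hy => ?_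
  obtain ⟨x, hx, -, k, -⟩ := h.split a b (l hy) (h.fj.cent_of (h.mq a b.d) (h.pf.syl.pg.to_le l) lP n c hy)
  rw [← mul_inv_cancel_left x y]
  exact mul_mem (mem_sup_left hx) (mem_sup_right ⟨K.mul_mem (K.inv_mem (l' hx)) hy, k⟩)

/-- a rank one group over the Baumann subgroup -/
theorem UM.rank1 (u : UM p T M ⊤) (c : Con p (⊤ : Subgroup G)) (h1 : ¬ ⊤ ≤ N[J[p, T]])
    (h2 : ¬ ⊤ ≤ N[ΩZ[p, T]]) : ∃ L M', T1 p Bm[p, T] M' L ∧ Con p L ∧ ¬ L ≤ M ∧
      ΩZ[p, O[{p}, (⊤ : Subgroup G)]] ≤ J[p, T] ∧ T ⊓ C[ΩZ[p, O[{p}, (⊤ : Subgroup G)]]] ≤ O[{p}, ⊤] := by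
  have e := OZ_syl u.syl c
  have q := u.syl.pCoreOf_le
  obtain ⟨V, hV⟩ : ∃ V, V = ΩZ[p, O[{p}, (⊤ : Subgroup G)]] := ⟨_, rfl⟩
  have el : IsElementaryAbelian p V := hV ▸ elem_OZ
  have VQ : V ≤ O[{p}, ⊤] := hV ▸ OZ_le
  have QC : O[{p}, ⊤] ≤ C[V] := le_centralizer_iff.1 (hV ▸ OZ_cent)
  have n : ⊤ ≤ N[V] := hV ▸ norm_OZ le_norm_piCoreOf
  have n' : ∀ K : Subgroup G, K ≤ N[V] := fun K => le_top.trans n
  rw [← hV] at e ⊢
  have c1 : ⊤ ⊓ C[V ⊓ C[T]] ≤ M := e ▸ (inf_le_inf_left _ (cent_le_norm _)).trans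
    (u.norm_le' (norm_OZ le_normalizer) h2)
  have c2 : T ⊓ C[V] ≤ O[{p}, ⊤] := u.cent_le n ((inf_le_inf_left _ (cent_anti inf_le_left)).trans c1)
  obtain ⟨A, a, a0⟩ : ∃ A, ME p T A ∧ ¬ A ≤ C[V] := by
    by_contra! f
    refine h1 ?_
    rw [← J_eq_of_le ((le_inf J_le (J_le_iff.2 f)).trans c2) q]
    exact le_norm_piCoreOf.trans norm_le_norm_J
  have h := u.bs el n QC c1 fun f => a0 (a.le.trans f)
  have eb : ∀ A, IsElementaryAbelian p A → IsElementaryAbelian p (bar V A) := fun A a =>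
    elem_map _ ⟨isMulComm_iff.2 fun x hx y hy => Subtype.ext (comm_of_isMulComm a.1 hx hy),
      fun x hx => Subtype.ext (a.2 _ hx)⟩
  have ob : ∀ A, ME p T A → o[vv V V] ≤ o[bar V A] * o[vv V V ⊓ C[bar V A]] := fun A a => by
    have := (bo_bar (n' _) (a.bo el (VQ.trans q))).1 ⊥ bot_le
    rwa [cent_bot, inf_top_eq, card_bot, one_mul] at this
  have VJ : V ≤ J[p, T] := by
    have k := h.fj.jb _ (bar_mono le_top) (eb A a.el)
    rw [← vv_cent le_rfl (n' _), card_vv inf_le_left, card_vv le_rfl] at k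
    have k1 : A ⊓ C[V] ≤ C[V] := inf_le_right
    refine le_sup_right.trans (a.of_card (sup_le (inf_le_left.trans a.le) (VQ.trans q))
      (elem_sup (elem_of_le a.el inf_le_left) el k1) (Nat.le_of_mul_le_mul_right ?_
        (card_pos' (A ⊓ C[V] ⊓ V)))).le_J
    rw [card_sup_mul_card_inf (le_norm_of_le_cent k1), ← card_bar_mul (n' A), mul_right_comm, mul_comm]
    exact Nat.mul_le_mul_left _ ((Nat.mul_le_mul_left _ (card_le_of_le (le_inf inf_le_right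
      (inf_le_left.trans (inf_le_left.trans (le_cent_self a.ab)))))).trans k)
  obtain ⟨D, l, m, -⟩ := exists_mo (bar_mono le_top) (eb A a.el) (mt (bar_eq_bot (n' _)).1 a0) (ob A a)
  have lT := l.trans (bar_mono a.le)
  obtain ⟨C, b⟩ := h.ex_par m h.pf.syl Cl.self lT
  obtain ⟨U, -, lU, eU⟩ := exists_vv (comm_le_left b.np.nA)
  have JB : J[p, T] ≤ Bm[p, T] := le_inf J_le (le_centralizer_iff.1 OZ_cent)
  have UJ : U ≤ C[J[p, T]] := le_centralizer_iff.1 (J_le_iff.2 fun X x => (bar_le_cent lU (n' _)).1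
    (le_centralizer_iff.1 (eU ▸ h.quad_off (h.mq m b.d) lT _ _ (bar_mono x.le) rfl (eb X x.el) (ob X x))))
  have BU : Bm[p, T] ≤ C[U] := inf_le_right.trans (cent_anti (le_OZ (elem_of_le el lU) (lU.trans VJ) UJ))
  have sp := h.bsplit m b (bar_mono inf_le_left) (eU ▸ (bar_le_cent lU (n' _)).2 BU)
    (l.trans (bar_mono (a.le_J.trans JB)))
  have pD := h.pf.syl.pg.to_le lT
  obtain ⟨F, _, _, k, -, hF, hk⟩ := exists_field pD m.ne
  haveI := charP_of_card' (hF.trans hk)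
  have lE := sup_le m.le (b.b.le m.le)
  obtain ⟨M₁, t⟩ := (b.s2 F hF).t1 h.pf.el (lE.trans h.pf.n) (h.fj.fa' lE) b.hO le_sup_left
  have t1 := t.sup (h.pf.syl.pg.to_le (inf_le_left.trans (bar_mono inf_le_left)))
    (norm_of_central (inf_le_right : bar V Bm[p, T] ⊓ _ ≤ _))
  rw [sp] at t1
  let f : G →* HX V := (hψ V).comp ((MonoidHom.id G).codRestrict _ fun g => n (mem_top g))
  have ef : ∀ K : Subgroup G, K.map f = bar V K := fun K => Subgroup.ext fun x =>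
    ⟨fun ⟨y, hy, e⟩ => ⟨_, hy, e⟩, fun ⟨y, hy, e⟩ => ⟨y, hy, e⟩⟩
  generalize hL : D ⊔ C ⊔ bar V Bm[p, T] ⊓ C[D ⊔ C] = L' at t1
  have l1 : L' ≤ bar V ⊤ := hL ▸ sup_le lE (inf_le_left.trans (bar_mono le_top))
  have S1 : Bm[p, T] ⊔ O[{p}, ⊤] ≤ T := sup_le inf_le_left q
  have e1 : bar V (Bm[p, T] ⊔ O[{p}, ⊤]) = bar V Bm[p, T] := by
    rw [bar_sup (n' _) (n' _), (bar_eq_bot (n' _)).2 QC, sup_bot_eq]
  have s : Syl p (Bm[p, T] ⊔ O[{p}, ⊤]) (pre V L') := Syl.of_max ((bar_le_iff (n' _)).1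
    (e1.le.trans t1.um.syl.le)) (u.syl.pg.to_le S1) fun X x1 x2 x3 => le_antisymm (by
      have k1 := (bar_le_bar (n' _) (n' _)).1 (t1.um.syl.eq_of_le (ef X ▸ x1.map f) (e1.ge.trans (bar_mono x2))
        ((bar_le_iff (n' _)).2 x3)).le
      have k2 := (u.syl.inf_norm le_top (le_norm_cent (n' _))).eq_of_le (x1.to_le inf_le_right : PG[p, C[V] ⊓ X])
        (le_inf inf_le_right (c2.trans (le_sup_right.trans x2))) inf_le_left
      refine (le_inf k1 le_rfl).trans ?_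
      rw [sup_inf_of_norm (.inl (le_norm_cent (n' _))) (le_sup_left.trans x2), k2]
      exact sup_le_sup_left c2 _) x2
  obtain ⟨L₂, -, e2, t2⟩ := t1.lift (f := f) s ((ef _).trans e1) ((ef _).trans (bar_pre l1))
  have q2 : O[{p}, ⊤] ≤ O[{p}, L₂] := piCoreOf_le_piCoreOf (le_sup_right.trans t2.um.syl.le) le_top
  have c3 : Con p L₂ := ((inf_le_inf le_top (cent_anti q2)).trans c).trans q2
  have CL : C ≤ bar V L₂ := by rw [← ef, e2, ← hL]; exact le_sup_right.trans le_sup_left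
  obtain ⟨H, lH, nH, eH⟩ := t2.bau' c3 dvd_rfl (fun s _ e => e ▸ one_mem _) fun f => b.ne (eU ▸
    le_centralizer_iff.1 (CL.trans ((bar_le_cent lU (n' _)).2 (le_centralizer_iff.1 ((le_OZ (elem_of_le el lU)
      (lU.trans (VQ.trans le_sup_right)) (le_centralizer_iff.1 (sup_le BU (QC.trans (cent_anti lU))))).trans
        (t2.central OZ_cent f))))))
  rw [J_eq_of_le (JB.trans le_sup_left) S1, le_antisymm (inf_le_inf_right _ S1)
    (le_inf le_sup_left inf_le_right)] at eH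
  have q3 := t2.um.syl.pCoreOf_le
  have e3 : Bm[p, T] ⊔ O[{p}, L₂] = Bm[p, T] ⊔ O[{p}, ⊤] :=
    le_antisymm (sup_le le_sup_left q3) (sup_le_sup_left q2 _)
  have BH : Bm[p, T] ≤ H := eH.ge.trans inf_le_right
  obtain ⟨L, lL, e4, t3⟩ := t2.shrink lH (eH ▸ t2.um.syl.inf_norm lH (t2.um.syl.le.trans nH)) e3
    (t2.nleK (sup_le lH piCoreOf_le) (le_norm_sup nH le_norm_piCoreOf) (e3.ge.trans (sup_le_sup_right BH _)))
  have q4 : O[{p}, H] ≤ L := ((le_inf ((piCoreOf_le_of_norm lH nH).trans q3) piCoreOf_le).trans eH.le).trans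
    t3.um.syl.le
  have q5 := piCoreOf_le_piCoreOf q4 lL
  refine ⟨L, _, t3, ((inf_le_inf lL (cent_anti q5)).trans (c3.normal lH nH)).trans q5, fun f => b.nM 1
    (one_mem _) (by rw [map_cj_one]; exact h.pf.le) ?_, VJ, c2⟩
  rw [map_cj_one]
  exact CL.trans (bar_mono (le_inf le_top (e4.ge.trans (sup_le f (q3.trans (S1.trans u.le))))))

theorem P0.phi (h : P0 p S M L K X X B X) : Φ[K] ⊓ C[S] ≤ C[L] := by
  have r := h.res
  have k : ∀ {x y : G}, x ∈ K → y ∈ piRes {p} L → ∃ z ∈ X, y * x * y⁻¹ = z * x := fun {x y} hx hy =>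
    ⟨_, commutatorElement_inv x y ▸ inv_mem (r (commutator_mem_commutator hx hy)), by group⟩
  rw [← h.syl.piRes_sup, cent_sup]
  refine inf_le_inf_right _ (phi_le_of (p := p) (commutator_le.2 fun x hx y hy => mem_cent_iff.2 fun g hg => ?_)
    fun x hx => mem_cent_iff.2 fun g hg => ?_)
  · obtain ⟨z, hz, e⟩ := k hx hg
    obtain ⟨w, hw, e'⟩ := k hy hg
    have c : ∀ z ∈ X, ∀ x ∈ K, Commute z x := fun z hz x hx => (h.ZC hz x hx).symm
    rw [← mul_inv_eq_iff_eq_mul, ← cj_apply, map_commutatorElement, cj_apply, cj_apply, e, e',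
      commutator_mul_left', commutator_mul_right', (c z hz _ (mul_mem (h.ZQ hw) hy)).commutator_eq,
      (c w hw x hx).symm.commutator_eq, (c w hw _ (comm_le_norm le_rfl le_rfl
        (commutator_mem_commutator hx hy))).eq, one_mul, mul_inv_cancel_right, (c z hz _ (comm_le_norm le_rfl le_rfl
        (commutator_mem_commutator hx hy))).eq, mul_inv_cancel_right, mul_one]
  · obtain ⟨z, hz, e⟩ := k hx hg
    rw [← mul_inv_eq_iff_eq_mul, ← conj_pow, e, Commute.mul_pow (h.ZC hz x hx).symm, h.el.2 z hz, one_mul]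

variable {Q Z M' L' Q' Z' M'' L'' Q'' Z'' : Subgroup G}

theorem P1.uniq (h : P1 2 S M L Q Z B) (h' : R1 2 S M' L' Q' Z') (h'' : R1 2 S M'' L'' Q'' Z'')
    (i : Q.relIndex S = Q'.relIndex S) (i' : Q.relIndex S = Q''.relIndex S) (k : ¬ Z ≤ Q') (k' : ¬ Z ≤ Q'') :
    Z'' ≤ Z' := fun x hx => by
  have l := h.ZQ.trans h.QS
  have l' := h'.ZQ.trans h'.QS
  have l'' := h''.ZQ.trans h''.QS
  have e := h.crit2 h' i l' l k
  have e' := h'.crit2 h.toR1 i.symm l l' (h.crit0 h' l' l k)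
  have o' : Z ⊓ C[S] ≤ Z' := (h.OZ' h').le.trans inf_le_left
  by_cases x0 : x ∈ Q
  · exact o' ((h''.OZ' h.toR1).le ((h''.crit1 h.toR1 l l'' (h.crit0 h'' l'' l k')).le ⟨hx, x0⟩))
  have d := h'.dec e h.ZQ h.QS
  have pQ := h.syl.pg.to_le h.QS
  obtain ⟨y, hy, q, hq, rfl⟩ := (mem_sup_of_norm (l'.trans (h.SL.trans h.nQ))).1 (e'.ge (l'' hx))
  have y0 : y ∉ Q := fun f => x0 (mul_mem f hq)
  have f : ∀ w ∈ Z, ⁅y, w⁆ ∈ Φ[Q] → w ∈ C[S] := fun w hw m => h.fa (l' hy) y0 hw (h.p0.phi ⟨m,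
    commutatorElement_inv w y ▸ C[S].inv_mem (h.q (commutator_mem_commutator hw (l' hy))).2⟩)
  obtain ⟨z, hz, c, hc, rfl⟩ := (mem_sup_of_norm (l.trans (le_norm_inf (h'.SL.trans h'.nQ)
    (h.SL.trans h.nQ)))).1 (d.ge hq)
  have y2 : y * y = 1 := sq y ▸ h'.el.2 y hy
  have c1 : Commute y c := (h'.ZC hy c hc.1).symm
  have e1 : ⁅y, z⁆ = ((z * c) ^ 2)⁻¹ := by
    rw [eq_inv_iff_mul_eq_one, ← h''.el.2 _ hx, commutatorElement_def, inv_eq_of_mul_eq_one_left y2, sq, sq]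
    simp only [mul_assoc, inv_mul_cancel_left, c1.left_comm]
  have z0 := f z hz (e1 ▸ inv_mem (pow_mem_phi pQ hq))
  have q2 : (z * c) ^ 2 = 1 := by
    rw [← inv_eq_one, ← e1]; exact commutatorElement_eq_one_iff_mul_comm.2 (z0 y (l' hy))
  have qQ : z * c ∈ Q' := mul_mem (h'.ZQ (o' ⟨hz, z0⟩)) hc.1
  generalize z * c = q at *
  refine mul_mem hy (o' (h.OZ.ge (mem_omegaOne ⟨h.QS hq, ?_⟩ q2)))
  rw [← e', ← d, cent_sup, cent_sup]
  refine ⟨h'.QC qQ, h.QC hq, mem_cent_iff.2 fun u hu => ?_⟩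
  obtain ⟨w, hw, v, hv, e2⟩ := (mem_sup_of_norm (l.trans (h''.SL.trans h''.nQ))).1
    ((h.crit2 h'' i' l'' l k').ge (h.QS hu.2))
  have e3 : ⁅u, y * q⁆ = ⁅w, y⁆ := by
    rw [← e2, commutator_mul_left', commutatorElement_eq_one_iff_mul_comm.2 (h''.ZC hx v hv),
      commutator_mul_right', commutatorElement_eq_one_iff_mul_comm.2 (h.QC hq w hw)]
    simp
  have m : ⁅u, q⁆ ∈ Q' := comm_le_norm le_rfl le_rfl (commutator_mem_commutator hu.1 qQ)
  rw [commutator_mul_right', commutatorElement_eq_one_iff_mul_comm.2 (h'.ZC hy u hu.1), one_mul,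
    ← h'.ZC hy _ m, mul_inv_cancel_right] at e3
  have := f w hw (commutatorElement_inv w y ▸ inv_mem (e3 ▸ comm_le_phi pQ.isNilpotent
    (commutator_mem_commutator hu.2 hq)))
  rw [← commutatorElement_eq_one_iff_mul_comm, e3, commutatorElement_eq_one_iff_mul_comm]
  exact (this y (l' hy)).symm

theorem Am.two (h : Am 2 S M L Q Z A) : ∃ τ ∈ A, ∀ m, ¬ Z:^(τ ^ (2 * m + 1)) ≤ Q := by
  obtain ⟨τ, hτ, k⟩ := h.main.resolve_right fun ⟨_, _, k⟩ => let ⟨_, _, _, k⟩ := h.p2 k; k.ne2 rfl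
  have i : ∀ σ ∈ A, Q.relIndex S = (Q:^σ).relIndex S := fun σ hσ => by
    rw [← relIndex_map_cj σ Q S, map_cj_eq (h.nA hσ)]
  have r := h.cjS (h.nA hτ)
  have k1 := h.crit0 r (r.ZQ.trans r.QS) (h.ZQ.trans h.QS) k
  have e := eq_of_le_of_card_ge ((h.p1 r (i τ hτ) k).uniq r (h.cjS (h.nA (inv_mem hτ))) (i τ hτ) (i _ (inv_mem hτ))
    k (by rwa [← map_cj_le_iff])) (by rw [card_map_cj, card_map_cj])
  refine ⟨τ, hτ, fun m => ?_⟩
  induction m with
  | zero => simpa using k1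
  | succ m ih => rwa [show τ ^ (2 * (m + 1) + 1) = τ ^ (2 * m + 1) * τ * τ by group, ← map_cj_cj, ← e,
      map_cj_cj, mul_inv_cancel_right]

theorem T1.embed (h : T1 p S M L) (c : Con p L) (𝒜 : Subgroup (MulAut S))
    (no : ∀ K ≤ S, L ≤ N[K] → (∀ α ∈ 𝒜, ∀ s : S, (s : G) ∈ K → (α s : G) ∈ K) → K = ⊥) :
    ∃ (f : G →* Equiv.Perm G) (A : Subgroup (Equiv.Perm G)), Injective f ∧ Am p (S.map f) (M.map f) (L.map f)
      (O[{p}, L].map f) (ΩZ[p, O[{p}, L]].map f) A ∧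
        ∀ σ ∈ A, ∃ α ∈ 𝒜, ∀ s : S, σ * f s * σ⁻¹ = f (α s) := by
  let f := MulAction.toPermHom G G
  have hf : Injective f := MulAction.toPerm_injective
  let A : Subgroup (Equiv.Perm G) := ⟨⟨⟨{σ | ∃ α ∈ 𝒜, ∀ s : S, σ * f s * σ⁻¹ = f (α s)}, by
    rintro σ τ ⟨α, hα, e⟩ ⟨β, hβ, e'⟩
    exact ⟨α * β, mul_mem hα hβ, fun s => by rw [MulAut.mul_apply, ← e, ← e']; group⟩⟩,
    1, one_mem _, by simp⟩, by
    rintro σ ⟨α, hα, e⟩
    exact ⟨α⁻¹, inv_mem hα, fun s => by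
      have := e (α⁻¹ s)
      rw [MulAut.apply_inv_self] at this
      rw [← this]; group⟩⟩
  have nA : A ≤ N[S.map f] := fun σ ⟨α, _, e⟩ => mem_norm_of_conj (by
    rintro _ ⟨s, hs, rfl⟩; exact e ⟨s, hs⟩ ▸ ⟨_, (α _).2, rfl⟩)
  have a := (h.map f (by rw [(MonoidHom.ker_eq_bot_iff f).2 hf]; exact inf_le_right.trans bot_le)).am (by
    rw [inj_piCoreOf hf, inj_inf_cent hf]; exact map_mono c) nA fun K l n k => by
      obtain ⟨K, rfl⟩ : ∃ X : Subgroup G, X.map f = K := ⟨_, map_comap_eq_self (l.trans (map_le_range f S))⟩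
      rw [no _ ((inj_le hf).1 l) ((inj_le_norm hf).1 n) fun α hα s hs => ?_, Subgroup.map_bot]
      obtain ⟨σ, e⟩ := exists_perm α
      exact (mem_map_iff_mem hf).1 (e s ▸ conj_mem_of_norm (k ⟨α, hα, e⟩) (mem_map_of_mem f hs) :)
  rw [inj_piCoreOf hf, inj_OZ hf] at a
  exact ⟨f, A, hf, a, fun _ h => h⟩

theorem T1.push2 (h : T1 2 S M L) (c : Con 2 L) (𝒜 : Subgroup (MulAut S))
    (no : ∀ K ≤ S, L ≤ N[K] → (∀ α ∈ 𝒜, ∀ s : S, (s : G) ∈ K → (α s : G) ∈ K) → K = ⊥) :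
    ∃ α ∈ 𝒜, ∀ m, ∃ z : S, (z : G) ∈ ΩZ[2, O[{2}, L]] ∧ ((α ^ (2 * m + 1)) z : G) ∉ O[{2}, L] := by
  obtain ⟨f, A, hf, a, k⟩ := h.embed c 𝒜 no
  obtain ⟨τ, hτ, t⟩ := a.two
  obtain ⟨α, hα, e⟩ := k τ hτ
  have e' : ∀ (n : ℕ) (s : S), τ ^ n * f s * (τ ^ n)⁻¹ = f ((α ^ n) s) := fun n => by
    induction n with
    | zero => simp
    | succ n ih => exact fun s => by rw [pow_succ α, MulAut.mul_apply, ← ih, ← e]; group
  refine ⟨α, hα, fun m => by_contra fun n => t m ?_⟩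
  rintro _ ⟨_, ⟨z, hz, rfl⟩, rfl⟩
  rw [cj_apply, e' _ ⟨z, h.um.syl.pCoreOf_le (OZ_le hz)⟩]
  exact mem_map_of_mem f (by_contra fun k => n ⟨_, hz, k⟩)

omit hp in
theorem norm_Bm : N[S] ≤ N[Bm[p, S]] := le_norm_inf le_rfl (le_norm_cent (norm_OZ norm_le_norm_J))

omit hp in
theorem char_Bm : (Bm[p, S].subgroupOf S).Characteristic := char_of_norm inf_le_left (by
  have hf : Injective (MulAction.toPermHom G G) := MulAction.toPerm_injective
  rw [← inj_inf_cent hf, ← inj_OZ hf, ← inj_J hf]; exact norm_Bm)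

omit hp in
theorem char_J : (J[p, S].subgroupOf S).Characteristic := char_of_norm J_le (by
  rw [← inj_J MulAction.toPerm_injective]; exact norm_le_norm_J)

omit hp in
theorem char_OZ : (ΩZ[p, S].subgroupOf S).Characteristic := char_of_norm OZ_le (by
  rw [← inj_OZ MulAction.toPerm_injective]; exact norm_OZ le_rfl)

omit [Finite G] hp in
theorem exists_restrict (l : B ≤ S) [(B.subgroupOf S).Characteristic] : ∃ r : MulAut S →* MulAut B,
    ∀ α (b : B), (r α b : G) = α ⟨b, l b.2⟩ :=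
  ⟨(MulAut.congr (subgroupOfEquivOfLe l)).toMonoidHom.comp (MulAut.characteristic _), fun _ _ => rfl⟩

end CfsgH2
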