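import Cfsg.Agent.H2.BG0
import Cfsg.Prelude.Def_SylowChains

/-! Control of Sylow intersections. -/

set_option autoImplicit false
namespace CfsgH2
open Subgroup Function Cfsg
open Relation (ReflTransGen)

theorem rtg_iff {α : Type*} {r : α → α → Prop} {a b : α} : ReflTransGen r a b ↔
    ∃ (n : ℕ) (c : Fin (n + 1) → α), c 0 = a ∧ c (Fin.last n) = b ∧
      ∀ i : Fin n, r (c i.castSucc) (c i.succ) := by
  constructor
  · intro h
    induction h with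
    | refl => exact ⟨0, fun _ => a, rfl, rfl, fun i => i.elim0⟩
    | @tail b d _ e i =>
      obtain ⟨n, c, rfl, rfl, h⟩ := i
      refine ⟨n + 1, Fin.snoc c d, by simp [Fin.snoc], by simp, fun i => ?_⟩
      induction i using Fin.lastCases with
      | last => simpa using e
      | cast i => simpa [← Fin.castSucc_succ] using h i
  · rintro ⟨n, c, rfl, rfl, h⟩
    induction n with
    | zero => exact .refl
    | succ n i => exact (i (fun j => c j.castSucc) fun j => h j.castSucc).tail (h (Fin.last n))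

variable {G : Type*} [Group G] [Finite G] {p : ℕ} [Fact p.Prime] {𝓕 𝓖 : Set (Subgroup G)}
  {D E F M P Q R S T U X : Subgroup G}

theorem sm_iff : X ∈ sylowMembers p 𝓕 S ↔ X ∈ 𝓕 ∧ Syl p (S ⊓ X) X :=
  and_congr_right fun _ => ⟨fun ⟨P, e⟩ => e ▸ syl_sub P, Syl.exists_sub⟩

/-- One link of a chain. -/
def Lk (p : ℕ) (𝓕 : Set (Subgroup G)) (M D S T : Subgroup G) : Prop :=
  Syl p S M ∧ Syl p T M ∧ D ≤ S ∧ D ≤ T ∧ ∃ X ∈ 𝓕, Syl p (S ⊓ X) X ∧ Syl p (T ⊓ X) X ∧ D ≤ X ∧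
    ∃ x ∈ X, T.map (cj x⁻¹) = S

/-- Chains. -/
abbrev Ch (p : ℕ) (𝓕 : Set (Subgroup G)) (M D : Subgroup G) := ReflTransGen (Lk p 𝓕 M D)

/-- Control of Sylow intersections in `M`. -/
def CS (p : ℕ) (𝓕 : Set (Subgroup G)) (M : Subgroup G) : Prop :=
  ∀ S T, Syl p S M → Syl p T M → S ⊓ T ≠ ⊥ → Ch p 𝓕 M (S ⊓ T) S T

omit [Finite G] [Fact p.Prime] in
theorem Ch.mono (h : Ch p 𝓕 M D S T) (l : E ≤ D) (s : 𝓕 ⊆ 𝓖) : Ch p 𝓖 M E S T := by
  induction h with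
  | refl => exact .refl
  | tail _ e i =>
    obtain ⟨a, b, c, d, X, e, f, g, h, j⟩ := e
    exact i.tail ⟨a, b, l.trans c, l.trans d, X, s e, f, g, l.trans h, j⟩

omit [Finite G] [Fact p.Prime] in
theorem CS.ch (h : CS p 𝓕 M) (s : Syl p S M) (t : Syl p T M) (d : D ≠ ⊥) (a : D ≤ S) (b : D ≤ T) :
    Ch p 𝓕 M D S T :=
  (h S T s t fun e => d (le_bot_iff.1 (e ▸ le_inf a b))).mono (le_inf a b) le_rfl

theorem cs_top_iff : ControlsSylowIntersections p 𝓕 ↔ CS p 𝓕 ⊤ := by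
  constructor
  · intro h S T s t d
    obtain ⟨S, rfl⟩ := s.exists_top
    obtain ⟨T, rfl⟩ := t.exists_top
    by_cases e : S = T
    · exact e ▸ .refl
    obtain ⟨n, c, X, x, rfl, rfl, h⟩ := h S T e d
    refine rtg_iff.2 ⟨n, fun i => c i, rfl, rfl, fun i => ?_⟩
    obtain ⟨a, b, c1, d, e⟩ := h i
    refine ⟨syl_top _, syl_top _, ?_, e.trans inf_le_left, X i, (sm_iff.1 a).1, (sm_iff.1 a).2,
      (sm_iff.1 b).2, e.trans inf_le_right, x i, c1, d⟩
    rcases Fin.eq_zero_or_eq_succ i.castSucc with f | ⟨j, f⟩ <;> rw [f]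
    exacts [inf_le_left, (h j).2.2.2.2.trans inf_le_left]
  · intro h S T _ d
    obtain ⟨n, c, e0, e1, h⟩ := rtg_iff.1 (h S T (syl_top S) (syl_top T) d)
    have s : ∀ i, Syl p (c i) ⊤ := fun i => by
      rcases Fin.eq_zero_or_eq_succ i with rfl | ⟨j, rfl⟩
      exacts [e0 ▸ syl_top S, (h j).2.1]
    choose c' hc using fun i => (s i).exists_top
    choose h1 h2 h3 h4 X h5 h6 h7 h8 x h9 h10 using h
    refine ⟨n, c', X, x, Sylow.ext (by rw [hc, e0]), Sylow.ext (by rw [hc, e1]), fun i => ?_⟩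
    simp only [hc, sm_iff]
    exact ⟨⟨h5 i, h6 i⟩, ⟨h5 i, h7 i⟩, h9 i, h10 i, le_inf (h4 i) (h8 i)⟩

theorem Ch.map {G' : Type*} [Group G'] [Finite G'] {f : G →* G'} (hf : Injective f)
    (h : Ch p 𝓕 M D S T) : Ch p (Subgroup.map f '' 𝓕) (M.map f) (D.map f) (S.map f) (T.map f) := by
  induction h with
  | refl => exact .refl
  | tail _ e l =>
  obtain ⟨a, b, c, d, X, e, g, h, i, x, j, k⟩ := e
  exact l.tail ⟨(inj_syl hf).2 a, (inj_syl hf).2 b, map_mono c, map_mono d, _, ⟨X, e, rfl⟩,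
      Subgroup.map_inf _ _ _ hf ▸ (inj_syl hf).2 g, Subgroup.map_inf _ _ _ hf ▸ (inj_syl hf).2 h, map_mono i,
      f x, mem_map_of_mem f j, by rw [← map_inv, ← map_map_cj, k]⟩

theorem CS.map {G' : Type*} [Group G'] [Finite G'] {f : G →* G'} (hf : Injective f)
    (h : CS p 𝓕 M) : CS p (Subgroup.map f '' 𝓕) (M.map f) := fun S T s t d => by
  obtain ⟨S, -, rfl⟩ := exists_map_eq_le s.le
  obtain ⟨T, -, rfl⟩ := exists_map_eq_le t.le
  rw [← Subgroup.map_inf _ _ _ hf] at d ⊢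
  exact (h S T ((inj_syl hf).1 s) ((inj_syl hf).1 t) fun e => d (by rw [e, Subgroup.map_bot])).map hf

omit [Finite G] [Fact p.Prime] in
theorem nset_cj (h : IsNormalSet 𝓕) (g : G) : Subgroup.map (cj g) '' 𝓕 ⊆ 𝓕 := by
  rintro _ ⟨X, a, rfl⟩
  simpa only [subgroupConjRight, inv_inv, cj_def] using h X a g⁻¹

theorem Ch.map_cj (n : IsNormalSet 𝓕) (h : Ch p 𝓕 ⊤ D S T) (g : G) :
    Ch p 𝓕 ⊤ (D.map (cj g)) (S.map (cj g)) (T.map (cj g)) :=
  map_cj_top g ▸ (h.map (cj_injective g)).mono le_rfl (nset_cj n g)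

variable {f : Subgroup G → Set (Subgroup G)}

theorem ff_iff : X ∈ functorFamily p f M ↔ ∃ P, Syl p P M ∧ ∃ F ∈ f P, X = M ⊓ N[F] :=
  ⟨fun ⟨P, h⟩ => ⟨_, syl_sub P, h⟩, fun ⟨_, s, h⟩ => by
    obtain ⟨P, rfl⟩ := s.exists_sub; exact ⟨P, h⟩⟩

theorem reg_cs (h : IsFunctorRegular p f M) : CS p (functorFamily p f M) M := by
  have := (cs_top_iff.1 h).map M.subtype_injective
  rw [map_subtype_top] at this
  refine fun S T s t d => (this S T s t d).mono le_rfl ?_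
  rintro _ ⟨_, ⟨X, a, rfl⟩, rfl⟩
  obtain ⟨P, s, F, b, rfl⟩ := ff_iff.1 a
  rwa [map_subgroupOf_eq_of_le inf_le_left]

theorem reg_top (h : CS p (functorFamily p f ⊤) ⊤) : IsFunctorRegular p f ⊤ := by
  let e : G →* (⊤ : Subgroup G) := topEquiv.symm.toMonoidHom
  have := h.map (f := e) topEquiv.symm.injective
  rw [map_top_of_surjective _ topEquiv.symm.surjective] at this
  refine cs_top_iff.2 fun S T s t d => (this S T s t d).mono le_rfl ?_
  rintro _ ⟨X, a, rfl⟩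
  exact ⟨X, a, (map_equiv_eq_comap_symm' topEquiv.symm X).symm⟩

theorem ff_normal (hf : IsNormalizerFunctor p f) : IsNormalSet (functorFamily p f ⊤) :=
  fun _ a g => by
    obtain ⟨P, s, F, b, rfl⟩ := ff_iff.1 a
    refine ff_iff.2 ⟨_, s.map_cj_mem (mem_top g⁻¹), F.map (cj g⁻¹), ?_, ?_⟩
    · exact ((hf P s.pg).2 g⁻¹).ge ⟨F, b, rfl⟩
    · rw [top_inf_eq, top_inf_eq, normalizer_map_cj]; rfl

theorem Lk.ex (hf : IsNormalizerFunctor p f) (h : Lk p (functorFamily p f M) M D S T) :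
    ∃ R, Syl p R M ∧ ∃ F ∈ f R, S ≤ N[F] ∧ T ≤ N[F] ∧ ∃ x ∈ N[F], T.map (cj x⁻¹) = S := by
  obtain ⟨a, b, -, -, X, e, g, h, -, x, j, k⟩ := h
  obtain ⟨R, r, F, m, rfl⟩ := ff_iff.1 e
  have r2 := r.mono (le_inf r.le (le_normalizer.trans ((hf R r.pg).1 F m).2)) inf_le_left
  have key : ∀ {S}, Syl p S M → Syl p (S ⊓ (M ⊓ N[F])) (M ⊓ N[F]) → S ≤ N[F] := fun a g =>
    (eq_of_le_of_card_le inf_le_left ((a.card_eq_card r).trans (r2.card_eq_card g)).le).ge.trans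
      (inf_le_right.trans inf_le_right)
  exact ⟨R, r, F, m, key a g, key b h, x, j.2, k⟩

theorem Lk.lift (hf : IsNormalizerFunctor p f) (h : Lk p (functorFamily p f M) M D S T)
    (s : Syl p S ⊤) : Lk p (functorFamily p f ⊤) ⊤ D S T := by
  obtain ⟨R, r, F, m, a, b, x, j, k⟩ := h.ex hf
  have t := s.of_card_ge h.2.1.pg le_top (h.1.card_eq_card h.2.1).le
  refine ⟨s, t, h.2.2.1, h.2.2.2.1, _, ff_iff.2 ⟨R, s.of_card_ge r.pg le_top
    (h.1.card_eq_card r).le, F, m, rfl⟩, ?_, ?_, le_inf le_top (h.2.2.1.trans a), x, ⟨trivial, j⟩, k⟩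
  · rw [top_inf_eq, inf_eq_left.2 a]; exact s.mono a le_top
  · rw [top_inf_eq, inf_eq_left.2 b]; exact t.mono b le_top

theorem Ch.lift (hf : IsNormalizerFunctor p f) (h : Ch p (functorFamily p f M) M D S T)
    (s : Syl p S ⊤) : Ch p (functorFamily p f ⊤) ⊤ D S T ∧ Syl p T ⊤ := by
  induction h with
  | refl => exact ⟨.refl, s⟩
  | tail _ e i => exact ⟨i.1.tail (e.lift hf i.2), (e.lift hf i.2).2.1⟩

theorem exists_mid {G₁ G₂ : Subgroup G} (s : Syl p S ⊤) (h1 : S ≤ G₁) (h2 : S ≤ G₂)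
    (h : ∀ g : G, ∃ g₁ ∈ G₁, ∃ g₂ ∈ G₂, g = g₁ * g₂) (g : G) :
    ∃ U, Syl p U ⊤ ∧ S ⊓ S.map (cj g) ≤ U ∧ U ≤ G₁ ⊓ G₂.map (cj g) := by
  obtain ⟨a, ha, b, hb, rfl⟩ := h g
  obtain ⟨U, u, l⟩ := exists_syl_ge (s.pg.to_le inf_le_left)
    (inf_le_inf h1 (map_mono h2) : S ⊓ S.map (cj (a * b)) ≤ _)
  refine ⟨U, s.of_card_ge u.pg le_top ((card_map_cj a S).ge.trans (u.card_le (s.pg.map _)
    (le_inf (map_cj_le_of_mem h1 ha) ?_))), l, u.le⟩
  rw [← map_cj_cj, map_cj_of_mem hb]; exact map_mono h2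

theorem cs_union (hf : IsNormalizerFunctor p f)
    (hf1 : ∀ P : Subgroup G, PG[p, P] → P ≠ ⊥ → ∀ F ∈ f P, F ≠ ⊥) :
    CS p (functorFamily p f ⊤ ∪ {M | IsMaximalPLocal p M ∧ ¬ IsFunctorRegular p f M}) ⊤ := by
  set 𝓗 := functorFamily p f ⊤ ∪ {M | IsMaximalPLocal p M ∧ ¬ IsFunctorRegular p f M}
  have ml : ∀ F : Subgroup G, PG[p, F] → F ≠ ⊥ → ∃ M, IsMaximalPLocal p M ∧ N[F] ≤ M :=
    fun F a b => by
      obtain ⟨M, l, c, d⟩ := exists_maximal_ge (IsPLocal p) ⟨F, a, b, rfl⟩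
      exact ⟨M, ⟨c, d⟩, l⟩
  suffices k : ∀ n, ∀ D : Subgroup G, D.index = n → D ≠ ⊥ → ∀ S T, Syl p S ⊤ → Syl p T ⊤ → D ≤ S →
      D ≤ T → Ch p 𝓗 ⊤ D S T from fun S T s t d => k _ _ rfl d S T s t inf_le_left inf_le_right
  intro n
  induction n using Nat.strong_induction_on with | _ n ih =>
  rintro D rfl d0
  have big : ∀ {P S T}, D < P → Syl p S ⊤ → Syl p T ⊤ → P ≤ S → P ≤ T → Ch p 𝓗 ⊤ D S T :=
    fun l s t a b => (ih _ (index_lt_of_lt l) _ rfl (ne_bot_of_gt l) _ _ s t a b).mono l.le le_rfl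
  have k2 : ∀ m, ∀ P : Subgroup G, P.index = m → ∀ M Q S T, IsMaximalPLocal p M → Syl p P M →
      Syl p Q M → D < P → D ≤ Q → Syl p S ⊤ → Syl p T ⊤ → P ≤ S → Q ≤ T → Ch p 𝓗 ⊤ D S T := by
    intro m
    induction m using Nat.strong_induction_on with | _ m ih2 =>
    rintro P rfl M Q S T m a b l1 l2 s t l3 l4
    have lt : ∀ {Q}, Syl p Q M → D ≤ Q → D < Q := fun b l => l.lt_of_ne fun e =>
      (card_lt_of_lt l1).ne (by rw [a.card_eq_card b, e])
    have inf : ∀ {Q T}, Syl p Q M → Syl p T ⊤ → Q ≤ T → Syl p (T ⊓ M) M := fun b t l =>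
      b.of_card_ge (t.pg.to_le inf_le_left) inf_le_right (card_le_of_le (le_inf l b.le))
    by_cases r : IsFunctorRegular p f M
    swap
    · obtain ⟨x, hx, e⟩ := b.conj a
      have t2 := t.map_cj_mem (mem_top x)
      have l5 : P ≤ T.map (cj x) := e ▸ map_mono l4
      exact (big l1 s t2 l3 l5).tail ⟨t2, t, l1.le.trans l5, l2.trans l4, M, .inr ⟨m, r⟩,
        inf a t2 l5, inf b t l4, l2.trans b.le, x⁻¹, inv_mem hx, by rw [inv_inv]⟩
    have c := (reg_cs r).ch a b d0 l1.le l2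
    clear b l2
    induction c generalizing T with
    | refl => exact big l1 s t l3 l4
    | @tail Q R _ e i =>
      obtain ⟨U, u, l5⟩ := exists_syl_ge e.1.pg le_top
      refine (i U u l5).trans ?_
      by_cases q : Syl p Q ⊤
      · have e2 := e.lift hf q
        rw [q.eq_of_le u.pg l5 le_top, e2.2.1.eq_of_le t.pg l4 le_top]
        exact Ch.mono (.single e2) le_rfl Set.subset_union_left
      obtain ⟨V, v, F, mF, n1, n2, -⟩ := e.ex hf
      have hF := (hf V v.pg).1 F mF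
      obtain ⟨M', m', l6⟩ := ml F (v.pg.to_le hF.1) (hf1 V v.pg (fun z => (ne_bot_of_gt l1)
        (card_eq_one.1 (by rw [a.card_eq_card v, z, card_bot]))) F mF)
      obtain ⟨P', p', l7⟩ := exists_syl_ge e.1.pg (n1.trans l6)
      obtain ⟨Q', q', l8⟩ := exists_syl_ge e.2.1.pg (n2.trans l6)
      obtain ⟨S', s', l9⟩ := exists_syl_ge p'.pg le_top
      obtain ⟨T', t', l10⟩ := exists_syl_ge q'.pg le_top
      have lt2 : o[P] < o[P'] := by
        obtain ⟨W, w, l11⟩ := exists_syl_ge v.pg le_top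
        have := lt_inf_norm (nil_of_pg w.pg) (l11.lt_of_ne fun z => q (w.of_card_ge e.1.pg le_top
          (by rw [← z, v.card_eq_card e.1])))
        exact (a.card_eq_card v).trans_lt ((card_lt_of_lt this).trans_le (p'.card_le
          (w.pg.to_le inf_le_left) (inf_le_right.trans (hF.2.trans l6))))
      refine ((big (lt e.1 e.2.2.1) u s' l5 (l7.trans l9)).trans (ih2 _ ?_ P' rfl M' Q' S' T' m' p' q'
        ((lt e.1 e.2.2.1).trans_le l7) (e.2.2.2.1.trans l8) s' t' l9 l10)).trans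
        (big (lt e.2.1 e.2.2.2.1) t' t (l8.trans l10) l4)
      have e1 := P.card_mul_index
      have e2 := P'.card_mul_index
      by_contra! c
      have := index_pos P
      nlinarith
  intro S T s t a b
  by_cases e : D = S
  · subst e; rw [s.eq_of_le t.pg b le_top]
  have e2 : D ≠ T := fun f => e (by subst f; exact (t.eq_of_le s.pg a le_top).symm)
  obtain ⟨M, m, l⟩ := ml D (s.pg.to_le a) d0
  have c1 := lt_inf_norm (nil_of_pg s.pg) (a.lt_of_ne e)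
  have c2 := lt_inf_norm (nil_of_pg t.pg) (b.lt_of_ne e2)
  obtain ⟨P, p', l1⟩ := exists_syl_ge (s.pg.to_le inf_le_left) (inf_le_right.trans l : S ⊓ N[D] ≤ M)
  obtain ⟨Q, q', l2⟩ := exists_syl_ge (t.pg.to_le inf_le_left) (inf_le_right.trans l : T ⊓ N[D] ≤ M)
  obtain ⟨S', s', l3⟩ := exists_syl_ge p'.pg le_top
  obtain ⟨T', t', l4⟩ := exists_syl_ge q'.pg le_top
  exact ((big c1 s s' inf_le_left (l1.trans l3)).trans (k2 _ P rfl M Q S' T' m p' q'
    (c1.trans_le l1) (c2.le.trans l2) s' t' l3 l4)).trans (big c2 t' t (l2.trans l4) inf_le_left)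

end CfsgH2
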